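import Cfsg.Agent.H512.Co3.Sit

/-!
# S1920, case B: the frame (helper512)

`exists_basis` : an orthogonal basis of common eigenvectors of `N0`.  `exists_class` : three of them have the same
character.
-/

set_option autoImplicit false

open Subgroup

namespace Cfsg.Agent.H512.Co3

open Cfsg.Agent.H13.Co3 (CB)
open Module

variable {F V : Type*} [Field F] [AddCommGroup V] [Module F V]
variable {Γ : Type*} [Group Γ] {P N0 : Subgroup Γ} {z s : Γ} {ψ : ↥(normalizer (P : Set Γ)) →* Equiv.Perm (Fin 6)}
  {act : Γ → V →ₗ[F] V} {B : V →ₗ[F] V →ₗ[F] F}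

namespace Big

/-- the orthogonal complement of a family contains two non-orthogonal common eigenvectors with the same character -/
theorem exists_pair (h : Big P N0 z s ψ act B) {ι : Type*} {f : ι → V} (he : ∀ i, Eig N0 act (f i)) {w₁ w₂ : V}
    (h1 : ∀ i, B (f i) w₁ = 0) (h2 : ∀ i, B (f i) w₂ = 0) (h12 : B w₁ w₂ ≠ 0) (T : Finset Γ) (hT : ∀ n ∈ T, n ∈ N0) :
    ∃ u₁ u₂ : V, (∀ i, B (f i) u₁ = 0) ∧ (∀ i, B (f i) u₂ = 0) ∧ B u₁ u₂ ≠ 0 ∧
      ∀ n ∈ T, (act n u₁ = u₁ ∧ act n u₂ = u₂) ∨ (act n u₁ = -u₁ ∧ act n u₂ = -u₂) := by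
  classical
  induction T using Finset.induction_on with
  | empty => exact ⟨w₁, w₂, h1, h2, h12, by simp⟩
  | insert m T hmT ih =>
    obtain ⟨u₁, u₂, g1, g2, g12, gT⟩ := ih fun n hn => hT n (Finset.mem_insert_of_mem hn)
    have hm : m ∈ N0 := hT m (Finset.mem_insert_self _ _)
    have horth : ∀ u : V, (∀ i, B (f i) u = 0) → ∀ i, B (f i) (act m u) = 0 := by
      intro u hu i
      rw [← h.adj hm]
      rcases he i m hm with e | e
      · rw [e, hu]
      · rw [e, map_neg, LinearMap.neg_apply, hu, neg_zero]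
    have hmm : ∀ n ∈ T, ∀ v, act n (act m v) = act m (act n v) := fun n hn v =>
      h.act_comm (hT n (Finset.mem_insert_of_mem hn)) hm v
    have key : B (u₁ + act m u₁) (u₂ + act m u₂) + B (u₁ - act m u₁) (u₂ - act m u₂) = 2 * (2 * B u₁ u₂) := by
      simp only [map_add, map_sub, LinearMap.add_apply, LinearMap.sub_apply]
      rw [h.iso m hm]
      ring
    have h4 : (2 : F) * (2 * B u₁ u₂) ≠ 0 := mul_ne_zero h.S.two (mul_ne_zero h.S.two g12)
    rcases eq_or_ne (B (u₁ + act m u₁) (u₂ + act m u₂)) 0 with h0 | h0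
    · rw [h0, zero_add] at key
      refine ⟨u₁ - act m u₁, u₂ - act m u₂, fun i => by rw [map_sub, g1, horth _ g1, sub_zero],
        fun i => by rw [map_sub, g2, horth _ g2, sub_zero], by rw [key]; exact h4, ?_⟩
      intro n hn
      rcases Finset.mem_insert.1 hn with rfl | hn
      · right
        constructor
        · rw [map_sub, h.act_sq hm, neg_sub]
        · rw [map_sub, h.act_sq hm, neg_sub]
      · rcases gT n hn with ⟨e1, e2⟩ | ⟨e1, e2⟩
        · left
          constructor
          · rw [map_sub, hmm n hn, e1]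
          · rw [map_sub, hmm n hn, e2]
        · right
          constructor
          · rw [map_sub, hmm n hn, e1, map_neg]; abel
          · rw [map_sub, hmm n hn, e2, map_neg]; abel
    · refine ⟨u₁ + act m u₁, u₂ + act m u₂, fun i => by rw [map_add, g1, horth _ g1, add_zero],
        fun i => by rw [map_add, g2, horth _ g2, add_zero], h0, ?_⟩
      intro n hn
      rcases Finset.mem_insert.1 hn with rfl | hn
      · left
        constructor
        · rw [map_add, h.act_sq hm, add_comm]
        · rw [map_add, h.act_sq hm, add_comm]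
      · rcases gT n hn with ⟨e1, e2⟩ | ⟨e1, e2⟩
        · left
          constructor
          · rw [map_add, hmm n hn, e1]
          · rw [map_add, hmm n hn, e2]
        · right
          constructor
          · rw [map_add, hmm n hn, e1, map_neg]; abel
          · rw [map_add, hmm n hn, e2, map_neg]; abel

/-- the projection to the orthogonal complement -/
theorem proj_orth {ι : Type*} [Fintype ι] {f : ι → V} (hf : Orth B f) (v : V) (j : ι) :
    B (f j) (v - ∑ i, (B (f i) v / B (f i) (f i)) • f i) = 0 := by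
  rw [map_sub, hf.B_sum (fun i => B (f i) v / B (f i) (f i)), div_mul_cancel₀ _ (hf.on j), sub_self]

/-- **an orthogonal basis of common eigenvectors of `N0`** -/
theorem exists_basis [FiniteDimensional F V] (h : Big P N0 z s ψ act B) :
    ∀ k ≤ finrank F V, ∃ f : Fin k → V, Orth B f ∧ ∀ i, Eig N0 act (f i) := by
  intro k
  induction k with
  | zero => exact fun _ => ⟨Fin.elim0, ⟨fun i => i.elim0, fun i => i.elim0⟩, fun i => i.elim0⟩
  | succ k ih =>
    intro hk
    obtain ⟨f, hf, he⟩ := ih (by omega)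
    -- a vector outside the span
    obtain ⟨v, hv⟩ : ∃ v, v ∉ Submodule.span F (Set.range f) := by
      by_contra hc
      push Not at hc
      have htop : Submodule.span F (Set.range f) = ⊤ := by
        rw [eq_top_iff]; exact fun v _ => hc v
      have := finrank_range_le_card (R := F) f
      rw [Set.finrank, htop, finrank_top, Fintype.card_fin] at this
      omega
    obtain ⟨w₁, hw₁, hw₁0⟩ : ∃ w, (∀ i, B (f i) w = 0) ∧ w ≠ 0 := by
      refine ⟨v - ∑ i, (B (f i) v / B (f i) (f i)) • f i, proj_orth hf v, fun h0 => hv ?_⟩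
      rw [sub_eq_zero] at h0
      rw [h0]
      exact Submodule.sum_mem _ fun i _ => Submodule.smul_mem _ _ (Submodule.subset_span ⟨i, rfl⟩)
    obtain ⟨v₂, hv₂⟩ : ∃ v₂, B w₁ v₂ ≠ 0 := by
      by_contra hc
      push Not at hc
      exact hw₁0 (h.S.nondeg _ hc)
    have hw₂ : B w₁ (v₂ - ∑ i, (B (f i) v₂ / B (f i) (f i)) • f i) ≠ 0 := by
      rw [map_sub, map_sum, Finset.sum_eq_zero, sub_zero]
      · exact hv₂
      · intro i _
        rw [map_smul, h.S.symm w₁, hw₁, smul_zero]
    have hfin : Finite N0 := Nat.finite_of_card_ne_zero (by rw [h.C.card]; norm_num)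
    have hfin' : ((N0 : Set Γ)).Finite := hfin
    obtain ⟨u₁, u₂, g1, g2, g12, gT⟩ := h.exists_pair he hw₁ (proj_orth hf v₂) hw₂ hfin'.toFinset
      (fun n hn => by simpa using hn)
    have gT' : ∀ n ∈ N0, (act n u₁ = u₁ ∧ act n u₂ = u₂) ∨ (act n u₁ = -u₁ ∧ act n u₂ = -u₂) :=
      fun n hn => gT n (by simpa using hn)
    -- polarisation
    obtain ⟨u, hu0, huu, hue⟩ : ∃ u, (∀ i, B (f i) u = 0) ∧ B u u ≠ 0 ∧ Eig N0 act u := by
      rcases eq_or_ne (B u₁ u₁) 0 with a1 | a1
      · rcases eq_or_ne (B u₂ u₂) 0 with a2 | a2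
        · refine ⟨u₁ + u₂, fun i => by rw [map_add, g1, g2, add_zero], ?_, ?_⟩
          · have e : B (u₁ + u₂) (u₁ + u₂) = 2 * B u₁ u₂ := by
              simp only [map_add, LinearMap.add_apply]
              rw [a1, a2, h.S.symm u₂ u₁]; ring
            rw [e]
            exact mul_ne_zero h.S.two g12
          · intro n hn
            rcases gT' n hn with ⟨e1, e2⟩ | ⟨e1, e2⟩
            · left; rw [map_add, e1, e2]
            · right; rw [map_add, e1, e2]; abel
        · exact ⟨u₂, g2, a2, fun n hn => (gT' n hn).imp (fun e => e.2) (fun e => e.2)⟩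
      · exact ⟨u₁, g1, a1, fun n hn => (gT' n hn).imp (fun e => e.1) (fun e => e.1)⟩
    refine ⟨Fin.cons u f, ⟨?_, ?_⟩, ?_⟩
    · intro i j hij
      induction i using Fin.cases with
      | zero =>
        induction j using Fin.cases with
        | zero => exact absurd rfl hij
        | succ j => rw [Fin.cons_zero, Fin.cons_succ, h.S.symm, hu0]
      | succ i =>
        induction j using Fin.cases with
        | zero => rw [Fin.cons_zero, Fin.cons_succ, hu0]
        | succ j => rw [Fin.cons_succ, Fin.cons_succ]; exact hf.off i j fun e => hij (by rw [e])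
    · intro i
      induction i using Fin.cases with
      | zero => rw [Fin.cons_zero]; exact huu
      | succ i => rw [Fin.cons_succ]; exact hf.on i
    · intro i
      induction i using Fin.cases with
      | zero => rw [Fin.cons_zero]; exact hue
      | succ i => rw [Fin.cons_succ]; exact he i

/-- the algebra of similitudes of a plane -/
theorem plane_alg {α β γ δ μ ci cj : F} (hci : ci ≠ 0) (hcj : cj ≠ 0) (hμ : μ ≠ 0)
    (h1 : α ^ 2 * ci + β ^ 2 * cj = μ * ci) (h2 : γ ^ 2 * ci + δ ^ 2 * cj = μ * cj)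
    (h3 : α * γ * ci + β * δ * cj = 0) : α ^ 2 = δ ^ 2 ∧ (α + δ) * (β * cj + γ * ci) = 0 := by
  have e1 : μ * ci * cj * (α ^ 2 - δ ^ 2) = 0 := by
    linear_combination (α * γ * ci - β * δ * cj) * h3 - α ^ 2 * ci * h2 + δ ^ 2 * cj * h1
  have e2 : α ^ 2 - δ ^ 2 = 0 :=
    (mul_eq_zero.1 e1).resolve_left (mul_ne_zero (mul_ne_zero hμ hci) hcj)
  refine ⟨sub_eq_zero.1 e2, ?_⟩
  have e3 : (α + δ) * (α - δ) = 0 := by linear_combination e2
  rcases mul_eq_zero.1 e3 with e | e
  · rw [e, zero_mul]
  · have e4 : α = δ := sub_eq_zero.1 e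
    subst e4
    have e5 : α * (β * cj + γ * ci) = 0 := by linear_combination h3
    rcases mul_eq_zero.1 e5 with e | e
    · rw [e]; ring
    · rw [e, mul_zero]

/-- `u` and `v` have the same character -/
def Same (N0 : Subgroup Γ) (act : Γ → V →ₗ[F] V) (u v : V) : Prop := ∀ n ∈ N0, (act n u = u ↔ act n v = v)

theorem coef0 (h : Big P N0 z s ψ act B) {g : Γ}
    (hc : ∀ n ∈ N0, ∀ v, act g (act n v) = act n (act g v)) {u v : V} (hu : Eig N0 act u) (hv : Eig N0 act v)
    (hne : ¬ Same N0 act u v) : B v (act g u) = 0 := by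
  unfold Same at hne
  push Not at hne
  obtain ⟨n, hn, hh⟩ := hne
  have h2 := h.S.two
  have e0 : B v (act g u) = -B v (act g u) := by
    have e1 : B v (act g u) = B (act n v) (act g (act n u)) := by rw [hc n hn, h.iso n hn]
    rcases hh with ⟨a, b⟩ | ⟨a, b⟩
    · have b' := (hv n hn).resolve_left b
      rw [a, b', map_neg, LinearMap.neg_apply] at e1
      exact e1
    · have a' := (hu n hn).resolve_left a
      rw [a', b, map_neg, map_neg] at e1
      exact e1
  have e2 : (2 : F) * B v (act g u) = 0 := by linear_combination e0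
  exact (mul_eq_zero.1 e2).resolve_left h2

theorem Same.symm {N0 : Subgroup Γ} {act : Γ → V →ₗ[F] V} {u v : V} (h : Same N0 act u v) : Same N0 act v u :=
  fun n hn => (h n hn).symm

theorem Same.trans {N0 : Subgroup Γ} {act : Γ → V →ₗ[F] V} {u v w : V} (h : Same N0 act u v)
    (h' : Same N0 act v w) : Same N0 act u w :=
  fun n hn => (h n hn).trans (h' n hn)

/-- the square of a similitude of a plane -/
theorem square_plane [FiniteDimensional F V] (h : Big P N0 z s ψ act B) {ι : Type*} [Fintype ι] {f : ι → V}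
    (hf : Orth B f) (hcard : Fintype.card ι = finrank F V) (he : ∀ i, Eig N0 act (f i)) {k : Γ} (hkz : k * z = z * k)
    (hk : ∀ n ∈ N0, ∀ v, act k (act n v) = act n (act k v)) {i j : ι} (hij : i ≠ j)
    (hs : ∀ l, l ≠ i → l ≠ j → ¬ Same N0 act (f i) (f l) ∧ ¬ Same N0 act (f j) (f l)) :
    ∃ p t : F, act (k * k) (f i) = p • f i + (t * B (f i) (f i)) • f j ∧
      act (k * k) (f j) = (-t * B (f j) (f j)) • f i + p • f j := by
  classical
  have hexp : ∀ m, (m = i ∨ m = j) → act k (f m) = (B (f i) (act k (f m)) / B (f i) (f i)) • f i +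
      (B (f j) (act k (f m)) / B (f j) (f j)) • f j := by
    intro m hm
    apply hf.ext_vec hcard
    intro l
    rw [map_add, map_smul, map_smul, smul_eq_mul, smul_eq_mul]
    rcases eq_or_ne l i with rfl | hli
    · rw [hf.off _ _ hij, mul_zero, add_zero, div_mul_cancel₀ _ (hf.on _)]
    rcases eq_or_ne l j with rfl | hlj
    · rw [hf.off _ _ hli, mul_zero, zero_add, div_mul_cancel₀ _ (hf.on _)]
    · rw [hf.off _ _ hli, hf.off _ _ hlj, mul_zero, mul_zero, add_zero]
      rcases hm with rfl | rfl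
      · exact h.coef0 hk (he _) (he _) (hs l hli hlj).1
      · exact h.coef0 hk (he _) (he _) (hs l hli hlj).2
  obtain ⟨α, β, hα⟩ : ∃ α β : F, act k (f i) = α • f i + β • f j := ⟨_, _, hexp i (Or.inl rfl)⟩
  obtain ⟨γ, δ, hγ⟩ : ∃ γ δ : F, act k (f j) = γ • f i + δ • f j := ⟨_, _, hexp j (Or.inr rfl)⟩
  obtain ⟨μ, hμ, hsim⟩ := h.S.sim k hkz
  have oij := hf.off i j hij
  have oji := hf.off j i hij.symm
  have q1 := hsim (f i) (f i)
  have q2 := hsim (f j) (f j)
  have q3 := hsim (f i) (f j)
  rw [hα] at q1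
  rw [hγ] at q2
  rw [hα, hγ] at q3
  simp only [map_add, map_smul, LinearMap.add_apply, LinearMap.smul_apply, smul_eq_mul, oij, oji] at q1 q2 q3
  obtain ⟨a1, a2⟩ := plane_alg (hf.on i) (hf.on j) hμ (α := α) (β := β) (γ := γ) (δ := δ)
    (by linear_combination q1) (by linear_combination q2) (by linear_combination q3)
  refine ⟨α ^ 2 + β * γ, (α + δ) * β / B (f i) (f i), ?_, ?_⟩
  · rw [h.S.mul _ _ hkz hkz, hα, map_add, map_smul, map_smul, hα, hγ, div_mul_cancel₀ _ (hf.on i)]
    module
  · have e1 : -((α + δ) * β / B (f i) (f i)) * B (f j) (f j) = (α + δ) * γ := by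
      field_simp [hf.on i]
      linear_combination -a2
    rw [e1, h.S.mul _ _ hkz hkz, hγ, map_add, map_smul, map_smul, hα, hγ]
    have e2 : α ^ 2 + β * γ = δ ^ 2 + β * γ := by rw [a1]
    rw [e2]
    module

/-- **three vectors of the basis have the same character** -/
theorem exists_class [FiniteDimensional F V] (h : Big P N0 z s ψ act B) {ι : Type*} [Fintype ι] {f : ι → V}
    (hf : Orth B f) (hcard : Fintype.card ι = finrank F V) (he : ∀ i, Eig N0 act (f i)) :
    ∃ i j l, i ≠ j ∧ i ≠ l ∧ j ≠ l ∧ Same N0 act (f i) (f j) ∧ Same N0 act (f i) (f l) := by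
  classical
  by_contra hcon
  push Not at hcon
  have hsq : ∀ k k' : Γ, (∀ n ∈ N0, k * n = n * k) → (∀ n ∈ N0, k' * n = n * k') → ∀ v,
      act (k * k) (act (k' * k') v) = act (k' * k') (act (k * k) v) := by
    intro k k' hk hk' v
    have hkz : k * z = z * k := hk z (zN h.C)
    have hkz' : k' * z = z * k' := hk' z (zN h.C)
    have hka : ∀ n ∈ N0, ∀ v, act k (act n v) = act n (act k v) := fun n hn v => by
      rw [← h.S.mul _ _ hkz (h.nz hn), hk n hn, h.S.mul _ _ (h.nz hn) hkz]
    have hka' : ∀ n ∈ N0, ∀ v, act k' (act n v) = act n (act k' v) := fun n hn v => by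
      rw [← h.S.mul _ _ hkz' (h.nz hn), hk' n hn, h.S.mul _ _ (h.nz hn) hkz']
    refine hf.ext_map hcard (φ := act (k * k) ∘ₗ act (k' * k')) (φ' := act (k' * k') ∘ₗ act (k * k)) ?_ v
    intro i
    simp only [LinearMap.comp_apply]
    by_cases hi : ∃ j, i ≠ j ∧ Same N0 act (f i) (f j)
    · obtain ⟨j, hij, hs⟩ := hi
      have hs' : ∀ l, l ≠ i → l ≠ j → ¬ Same N0 act (f i) (f l) ∧ ¬ Same N0 act (f j) (f l) := by
        intro l hli hlj
        have := hcon i j l hij hli.symm hlj.symm hs
        exact ⟨this, fun h' => this (hs.trans h')⟩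
      obtain ⟨p, t, e1, e2⟩ := h.square_plane hf hcard he hkz hka hij hs'
      obtain ⟨p', t', e1', e2'⟩ := h.square_plane hf hcard he hkz' hka' hij hs'
      rw [e1', e1, map_add, map_add, map_smul, map_smul, map_smul, map_smul, e1', e1, e2', e2]
      module
    · push Not at hi
      have hone : ∀ g : Γ, (∀ n ∈ N0, ∀ v, act g (act n v) = act n (act g v)) →
          act g (f i) = (B (f i) (act g (f i)) / B (f i) (f i)) • f i := by
        intro g hg
        apply hf.ext_vec hcard
        intro l
        rw [map_smul, smul_eq_mul]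
        rcases eq_or_ne l i with rfl | hli
        · rw [div_mul_cancel₀ _ (hf.on _)]
        · rw [hf.off _ _ hli, mul_zero]
          exact h.coef0 hg (he _) (he _) (hi l hli.symm)
      have hkk : ∀ n ∈ N0, ∀ v, act (k * k) (act n v) = act n (act (k * k) v) := fun n hn v => by
        rw [h.S.mul _ _ hkz hkz, hka n hn, hka n hn, h.S.mul _ _ hkz hkz]
      have hkk' : ∀ n ∈ N0, ∀ v, act (k' * k') (act n v) = act n (act (k' * k') v) := fun n hn v => by
        rw [h.S.mul _ _ hkz' hkz', hka' n hn, hka' n hn, h.S.mul _ _ hkz' hkz']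
      obtain ⟨a, ha⟩ : ∃ a : F, act (k * k) (f i) = a • f i := ⟨_, hone _ hkk⟩
      obtain ⟨a', ha'⟩ : ∃ a : F, act (k' * k') (f i) = a • f i := ⟨_, hone _ hkk'⟩
      rw [ha', ha, map_smul, map_smul, ha, ha', smul_smul, smul_smul, mul_comm]
  obtain ⟨k, hk, hkψ⟩ := h.C.even (Equiv.swap 0 1 * Equiv.swap 1 2) (by decide)
  obtain ⟨k', hk', hkψ'⟩ := h.C.even (Equiv.swap 0 1 * Equiv.swap 1 3) (by decide)
  have hkz : (k : Γ) * z = z * k := hk z (zN h.C)
  have hkz' : (k' : Γ) * z = z * k' := hk' z (zN h.C)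
  have c1 := Sit.mul_comm' hkz hkz
  have c2 := Sit.mul_comm' hkz' hkz'
  have hψ : ψ ((k * k) * (k' * k')) = ψ ((k' * k') * (k * k)) := by
    rcases h.S.same (g := (k : Γ) * k * (k' * k')) (h := (k' : Γ) * k' * (k * k)) (Sit.mul_comm' c1 c2)
      (Sit.mul_comm' c2 c1) (fun v => by
        rw [h.S.mul _ _ c1 c2, h.S.mul _ _ c2 c1, hsq _ _ hk hk']) with e | e
    · congr 1
      exact Subtype.ext e
    · have hzH := h.C.NH (zN h.C)
      have e' : (k * k) * (k' * k') = ⟨z, hzH⟩ * ((k' * k') * (k * k)) := Subtype.ext e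
      rw [e', map_mul, psi_z h.C, one_mul]
  simp only [map_mul, hkψ, hkψ'] at hψ
  revert hψ
  decide

end Big

/-! ### square classes of a finite field -/

open Classical in
/-- the square class of a non-zero element -/
noncomputable def cls (a : F) : ZMod 2 := if IsSquare a then 0 else 1

theorem not_sq_mul [Finite F] (h2 : (2 : F) ≠ 0) {a b : F} (ha : ¬ IsSquare a) (hb : ¬ IsSquare b) :
    IsSquare (a * b) := by
  classical
  have := Fintype.ofFinite F
  have h2' : ringChar F ≠ 2 := fun h => h2 (by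
    have := ringChar.Nat.cast_ringChar (R := F)
    rw [h] at this; exact_mod_cast this)
  have ha0 : a ≠ 0 := fun h => ha (h ▸ IsSquare.zero)
  have hb0 : b ≠ 0 := fun h => hb (h ▸ IsSquare.zero)
  rw [← quadraticChar_one_iff_isSquare (mul_ne_zero ha0 hb0), map_mul,
    quadraticChar_neg_one_iff_not_isSquare.2 ha, quadraticChar_neg_one_iff_not_isSquare.2 hb]
  norm_num

theorem cls_mul [Finite F] (h2 : (2 : F) ≠ 0) {a b : F} (ha : a ≠ 0) (hb : b ≠ 0) :
    cls (a * b) = cls a + cls b := by
  unfold cls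
  by_cases h1 : IsSquare a
  · by_cases h3 : IsSquare b
    · rw [if_pos h1, if_pos h3, if_pos (h1.mul h3), add_zero]
    · have : ¬ IsSquare (a * b) := by
        rintro ⟨c, hc⟩
        obtain ⟨d, hd⟩ := h1
        have hd0 : d ≠ 0 := fun h => ha (by rw [hd, h, mul_zero])
        apply h3
        refine ⟨c / d, ?_⟩
        field_simp
        rw [hd] at hc
        linear_combination hc
      rw [if_pos h1, if_neg h3, if_neg this, zero_add]
  · by_cases h3 : IsSquare b
    · have : ¬ IsSquare (a * b) := by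
        rintro ⟨c, hc⟩
        obtain ⟨d, hd⟩ := h3
        have hd0 : d ≠ 0 := fun h' => hb (by rw [hd, h', mul_zero])
        apply h1
        refine ⟨c / d, ?_⟩
        field_simp
        rw [hd] at hc
        linear_combination hc
      rw [if_neg h1, if_pos h3, if_neg this, add_zero]
    · rw [if_neg h1, if_neg h3, if_pos (not_sq_mul h2 h1 h3)]
      decide

theorem cls_eq [Finite F] {a b : F} (ha : a ≠ 0) (hb : b ≠ 0) (h2 : (2 : F) ≠ 0) (h : cls a = cls b) :
    ∃ c : F, c ≠ 0 ∧ c * c = a * b := by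
  have h1 : cls (a * b) = 0 := by
    rw [cls_mul h2 ha hb, h]
    generalize cls b = x
    revert x; decide
  unfold cls at h1
  have h3 : IsSquare (a * b) := by
    by_contra hc
    rw [if_neg hc] at h1
    exact absurd h1 (by decide)
  obtain ⟨c, hc⟩ := h3
  exact ⟨c, fun h' => mul_ne_zero ha hb (by rw [hc, h', mul_zero]), hc.symm⟩

theorem cls_sq (c : F) : cls (c * c) = 0 := by
  unfold cls
  rw [if_pos ⟨c, rfl⟩]

/-- elements of `C(z)` which are diagonal in a basis of eigenvectors commute with the action of `N0` -/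
theorem Big.diag_comm [FiniteDimensional F V] (h : Big P N0 z s ψ act B) {ι : Type*} [Fintype ι] {f : ι → V}
    (hf : Orth B f) (hcard : Fintype.card ι = finrank F V) (he : ∀ i, Eig N0 act (f i)) {g : Γ}
    (hg : ∀ i, ∃ a : F, act g (f i) = a • f i) : ∀ n ∈ N0, ∀ v, act g (act n v) = act n (act g v) := by
  intro n hn v
  refine hf.ext_map hcard (φ := act g ∘ₗ act n) (φ' := act n ∘ₗ act g) ?_ v
  intro i
  simp only [LinearMap.comp_apply]
  obtain ⟨a, ha⟩ := hg i
  rcases he i n hn with e | e
  · rw [e, ha, map_smul, e]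
  · rw [e, ha, map_smul, e, map_neg, ha, smul_neg]

/-- **sign changes with determinant one and trivial spinor norm lift** -/
theorem sign_lift [Finite F] (S : Sit z act B) {ι : Type*} [Fintype ι] [DecidableEq ι]
    {f : ι → V} (hf : Orth B f) :
    ∀ (k : ℕ) (y : ι → ZMod 2), (Finset.univ.filter fun i => y i ≠ 0).card = k → ∑ i, y i = 0 →
      ∑ i, y i * cls (B (f i) (f i)) = 0 →
      ∃ g, g * z = z * g ∧ ∀ i, act g (f i) = if y i = 0 then f i else -f i := by
  intro k
  induction k using Nat.strong_induction_on with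
  | _ k ih =>
    intro y hy h0 h1
    have z1 : ∀ a : ZMod 2, a ≠ 0 → a = 1 := by decide
    by_cases hz : ∀ i, y i = 0
    · exact ⟨1, by rw [one_mul, mul_one], fun i => by rw [if_pos (hz i), S.one']⟩
    push Not at hz
    -- two indices with the same square class
    obtain ⟨i, j, hij, hi, hj, hc⟩ : ∃ i j, i ≠ j ∧ y i ≠ 0 ∧ y j ≠ 0 ∧ cls (B (f i) (f i)) = cls (B (f j) (f j)) := by
      obtain ⟨i, hi⟩ := hz
      obtain ⟨j, hji, hj⟩ : ∃ j, j ≠ i ∧ y j ≠ 0 := by
        by_contra hcon
        push Not at hcon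
        rw [Finset.sum_eq_single i (fun j _ hj => hcon j hj) (fun h => absurd (Finset.mem_univ i) h)] at h0
        exact hi h0
      by_cases hc : cls (B (f i) (f i)) = cls (B (f j) (f j))
      · exact ⟨i, j, hji.symm, hi, hj, hc⟩
      by_cases hl : ∃ l, l ≠ i ∧ l ≠ j ∧ y l ≠ 0
      · obtain ⟨l, hli, hlj, hl⟩ := hl
        have key : ∀ a b c : ZMod 2, a ≠ b → c = a ∨ c = b := by decide
        rcases key _ _ (cls (B (f l) (f l))) hc with e | e
        · exact ⟨l, i, hli, hl, hi, e⟩
        · exact ⟨l, j, hlj, hl, hj, e⟩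
      · exfalso
        push Not at hl
        rw [← Finset.sum_subset (Finset.subset_univ {i, j}) (fun l _ hl' => by
          simp only [Finset.mem_insert, Finset.mem_singleton, not_or] at hl'
          rw [hl l hl'.1 hl'.2, zero_mul]), Finset.sum_pair hji.symm, z1 _ hi, z1 _ hj, one_mul, one_mul] at h1
        apply hc
        revert h1
        generalize cls (B (f i) (f i)) = a
        generalize cls (B (f j) (f j)) = b
        revert a b
        decide
    let y' : ι → ZMod 2 := fun l => if l = i ∨ l = j then 0 else y l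
    have hyy : ∀ l, y l = y' l + (if l = i then 1 else 0) + (if l = j then 1 else 0) := by
      intro l
      rcases eq_or_ne l i with rfl | hli
      · simp only [y', true_or, if_true, if_neg hij, zero_add, add_zero]
        exact z1 _ hi
      rcases eq_or_ne l j with rfl | hlj
      · simp only [y', or_true, if_true, if_neg hij.symm, zero_add]
        exact z1 _ hj
      · simp only [y', hli, hlj, or_self, if_false, add_zero]
    have h11 : (1 : ZMod 2) + 1 = 0 := by decide
    have s0 : ∑ l, y' l = 0 := by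
      have e : ∑ l, y l = ∑ l, (y' l + (if l = i then 1 else 0) + (if l = j then 1 else 0)) :=
        Finset.sum_congr rfl fun l _ => hyy l
      rw [h0, Finset.sum_add_distrib, Finset.sum_add_distrib, Finset.sum_ite_eq', Finset.sum_ite_eq',
        if_pos (Finset.mem_univ _), if_pos (Finset.mem_univ _), add_assoc, h11, add_zero] at e
      exact e.symm
    have s1 : ∑ l, y' l * cls (B (f l) (f l)) = 0 := by
      have e : ∑ l, y l * cls (B (f l) (f l)) = ∑ l, (y' l * cls (B (f l) (f l)) +
          (if l = i then cls (B (f l) (f l)) else 0) + (if l = j then cls (B (f l) (f l)) else 0)) :=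
        Finset.sum_congr rfl fun l _ => by
          rw [hyy l, add_mul, add_mul]
          split_ifs <;> simp
      rw [h1, Finset.sum_add_distrib, Finset.sum_add_distrib, Finset.sum_ite_eq', Finset.sum_ite_eq',
        if_pos (Finset.mem_univ _), if_pos (Finset.mem_univ _), hc, add_assoc, ← two_mul] at e
      have h20 : (2 : ZMod 2) = 0 := by decide
      rw [h20, zero_mul, add_zero] at e
      exact e.symm
    have hlt : (Finset.univ.filter fun l => y' l ≠ 0).card < k := by
      rw [← hy]
      apply Finset.card_lt_card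
      rw [Finset.ssubset_iff_of_subset]
      · refine ⟨i, by simpa using hi, ?_⟩
        simp [y']
      · intro l hl
        simp only [Finset.mem_filter, Finset.mem_univ, true_and, y'] at hl ⊢
        split_ifs at hl with hh
        · exact absurd rfl hl
        · exact hl
    obtain ⟨g', hg'z, hg'⟩ := ih _ hlt y' rfl s0 s1
    obtain ⟨c, hc0, hcc⟩ := cls_eq (hf.on i) (hf.on j) S.two hc
    obtain ⟨g₁, hg₁z, hg₁⟩ := S.lift (f i) (f j) c hc0 hcc
    refine ⟨g₁ * g', Sit.mul_comm' hg₁z hg'z, fun l => ?_⟩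
    rw [S.mul _ _ hg₁z hg'z, hg']
    rcases eq_or_ne l i with rfl | hli
    · have e : y' l = 0 := by simp [y']
      rw [if_pos e, if_neg hi, hg₁, rf_orth (hf.off _ _ hij.symm), rf_self (hf.on _)]
    rcases eq_or_ne l j with rfl | hlj
    · have e : y' l = 0 := by simp [y']
      rw [if_pos e, if_neg hj, hg₁, rf_self (hf.on _), rf_neg, rf_orth (hf.off _ _ hij)]
    · have e : y' l = y l := by simp [y', hli, hlj]
      have e2 : act g₁ (f l) = f l := by
        rw [hg₁, rf_orth (hf.off _ _ hlj.symm), rf_orth (hf.off _ _ hli.symm)]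
      rw [e]
      split_ifs
      · exact e2
      · rw [map_neg, e2]

end Cfsg.Agent.H512.Co3
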