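import Cfsg.Agent.H512.Co3.Excl
import Cfsg.Agent.H10.Co3.Code
import Mathlib.LinearAlgebra.Matrix.Determinant.Basic

/-!
# S1920, case B: no configuration in an orthogonal situation of dimension ten with non-square discriminant (helper512)
-/

set_option autoImplicit false

open Subgroup

namespace Cfsg.Agent.H512.Co3

open Cfsg.Agent.H13.Co3 (CB)
open Cfsg.Agent.H10.Co3 (par sm code_swap)
open Module

variable {F V : Type*} [Field F] [AddCommGroup V] [Module F V]
variable {Γ : Type*} [Group Γ] {P N0 : Subgroup Γ} {z s : Γ} {ψ : ↥(normalizer (P : Set Γ)) →* Equiv.Perm (Fin 6)}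
  {act : Γ → V →ₗ[F] V} {B : V →ₗ[F] V →ₗ[F] F}

/-- the bit of a sign -/
def toB (a : ZMod 2) : Bool := decide (a = 1)

theorem toB_add : ∀ a c : ZMod 2, toB (a + c) = (toB a ^^ toB c) := by decide

theorem toB_inj : ∀ a c : ZMod 2, toB a = toB c → a = c := by decide

theorem par_toB (x : Fin 6 → ZMod 2) (h : ∑ k, x k = 0) : par (fun k => toB (x k)) = false := by
  rw [Fin.sum_univ_six] at h
  unfold par
  simp only [← toB_add]
  have : x 0 + x 1 + (x 2 + x 3) + (x 4 + x 5) = 0 := by linear_combination h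
  rw [this]; rfl

/-- the swap of two further vectors of the same square class, times a reflection, lifts -/
theorem Fr.exists_swap [Finite F] [FiniteDimensional F V] {e : Fin 4 → V} {b : Fin 6 → V}
    (h : Fr P N0 z s ψ act B e b) (hd : ∑ i, cls (B (e i) (e i)) = 1) {i j : Fin 6} (hij : i ≠ j)
    (hc : cls (B (b i) (b i)) = cls (B (b j) (b j))) :
    ∃ (g : Γ) (a γ : F), g * z = z * g ∧ a * a = 1 ∧ γ ≠ 0 ∧ (∀ l, act g (e l) = a • e l) ∧
      act g (b i) = -(γ • b j) ∧ act g (b j) = γ⁻¹ • b i ∧ ∀ k, k ≠ i → k ≠ j → act g (b k) = b k := by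
  classical
  have S := h.big.S
  have h2 := S.two
  obtain ⟨c, hc0, hcc⟩ := cls_eq (h.bb.on i) (h.bb.on j) h2 hc
  have hj0 := h.bb.on j
  have hi0 := h.bb.on i
  obtain ⟨γ, hγ0, hγ⟩ : ∃ γ : F, γ ≠ 0 ∧ γ * γ * B (b j) (b j) = B (b i) (b i) := by
    refine ⟨c / B (b j) (b j), div_ne_zero hc0 hj0, ?_⟩
    field_simp
    linear_combination hcc
  obtain ⟨v, hv⟩ : ∃ v, v = γ • b j := ⟨_, rfl⟩
  have oij := h.bb.off i j hij
  have oji := h.bb.off j i hij.symm
  have hvv : B v v = B (b i) (b i) := by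
    rw [hv]; simp only [map_smul, LinearMap.smul_apply, smul_eq_mul]; rw [← hγ]; ring
  have hiv : B (b i) v = 0 := by rw [hv, map_smul, oij, smul_zero]
  have hvi : B v (b i) = 0 := by rw [S.symm, hiv]
  have hnn : B (b i - v) (b i - v) = 2 * B (b i) (b i) := by
    simp only [map_sub, LinearMap.sub_apply, hiv, hvi, hvv]; ring
  have hn0 : B (b i - v) (b i - v) ≠ 0 := by rw [hnn]; exact mul_ne_zero h2 hi0
  -- the reflection in `b i - v`
  have r1 : rf B (b i - v) (b i) = v := by
    unfold rf
    rw [hnn, map_sub, LinearMap.sub_apply, hvi, sub_zero, div_self (mul_ne_zero h2 hi0), one_smul]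
    abel
  have r2 : rf B (b i - v) v = b i := by
    unfold rf
    rw [hnn, map_sub, LinearMap.sub_apply, hiv, hvv, zero_sub, mul_neg, neg_div, div_self (mul_ne_zero h2 hi0),
      neg_one_smul]
    abel
  have r3 : ∀ k, k ≠ i → k ≠ j → rf B (b i - v) (b k) = b k := by
    intro k hki hkj
    apply rf_orth
    rw [map_sub, LinearMap.sub_apply, h.bb.off i k hki.symm, hv, map_smul, LinearMap.smul_apply,
      h.bb.off j k hkj.symm, smul_zero, sub_zero]
  have r4 : ∀ u, (∀ k, B (b k) u = 0) → rf B (b i - v) u = u := by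
    intro u hu
    apply rf_orth
    rw [map_sub, LinearMap.sub_apply, hu, hv, map_smul, LinearMap.smul_apply, hu, smul_zero, sub_zero]
  have hjv : b j = γ⁻¹ • v := by rw [hv, smul_smul, inv_mul_cancel₀ hγ0, one_smul]
  rcases zcase (cls (2 : F)) with hcl | hcl
  · -- `2` is a square
    have hs2 : IsSquare (2 : F) := by
      unfold cls at hcl
      by_contra hcon
      rw [if_neg hcon] at hcl
      exact absurd hcl (by decide)
    obtain ⟨d, hd2⟩ := hs2
    have hd0 : d ≠ 0 := fun h0 => h2 (by rw [hd2, h0, mul_zero])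
    obtain ⟨g, hgz, hg⟩ := S.lift (b i - v) (b i) (d * B (b i) (b i)) (mul_ne_zero hd0 hi0) (by
      rw [hnn]; linear_combination (-(B (b i) (b i) * B (b i) (b i))) * hd2)
    refine ⟨g, 1, γ, hgz, one_mul 1, hγ0, fun l => ?_, ?_, ?_, fun k hki hkj => ?_⟩
    · rw [hg, rf_orth (h.be l i), r4 _ (fun k => h.be l k), one_smul]
    · rw [hg, rf_self hi0, rf_neg, r1, hv]
    · rw [hjv, map_smul, hg, rf_orth hiv, r2]
    · rw [hg, rf_orth (h.bb.off i k hki.symm), r3 k hki hkj]
  · -- `2` is not a square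
    obtain ⟨e', he', hsp, hsum, hcl'⟩ := norm_form S (cls (B (b i - v) (b i - v))) h.ee 3 le_rfl
    have he0 : cls (B (e' 0) (e' 0)) = cls (B (b i - v) (b i - v)) := hcl' 0 (by decide)
    have h' : Fr P N0 z s ψ act B e' b := h.change he' fun i k => hsp (b k) (fun i => h.eb i k) i
    obtain ⟨d, hd0, hdd⟩ := cls_eq hn0 (he'.on 0) h2 he0.symm
    obtain ⟨g₁, hg₁z, hg₁⟩ := S.lift (b i - v) (e' 0) d hd0 hdd
    let y : Fin 4 ⊕ Fin 6 → ZMod 2 := Sum.elim (fun l => if l = 0 then 0 else 1) (fun k => if k = i then 1 else 0)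
    obtain ⟨g₂, hg₂z, hg₂⟩ := sign_lift S h'.orth _ y rfl (by
      rw [Fintype.sum_sum_type]
      simp only [y, Sum.elim_inl, Sum.elim_inr, Finset.sum_ite_eq', Finset.mem_univ, if_true]
      decide) (by
      rw [Fintype.sum_sum_type]
      simp only [y, Sum.elim_inl, Sum.elim_inr, ite_mul, zero_mul, one_mul, Finset.sum_ite_eq', Finset.mem_univ,
        if_true]
      rw [hd] at hsum
      rw [Fin.sum_univ_four] at hsum ⊢
      rw [he0, hnn, cls_mul h2 h2 hi0, hcl] at hsum
      simp only [if_true, Fin.isValue, one_ne_zero, if_false, Fin.reduceEq]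
      revert hsum
      generalize cls (B (e' 1) (e' 1)) = x1
      generalize cls (B (e' 2) (e' 2)) = x2
      generalize cls (B (e' 3) (e' 3)) = x3
      generalize cls (B (b i) (b i)) = x4
      revert x1 x2 x3 x4
      decide)
    have t0 : act g₂ (e' 0) = e' 0 := by
      have := hg₂ (Sum.inl 0)
      simpa [y] using this
    have tl : ∀ l : Fin 4, l ≠ 0 → act g₂ (e' l) = -e' l := fun l hl => by
      have := hg₂ (Sum.inl l)
      simpa [y, hl] using this
    have ti : act g₂ (b i) = -b i := by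
      have := hg₂ (Sum.inr i)
      simpa [y] using this
    have tk : ∀ k, k ≠ i → act g₂ (b k) = b k := fun k hk => by
      have := hg₂ (Sum.inr k)
      simpa [y, hk] using this
    have hgz := Sit.mul_comm' hg₁z hg₂z
    have hE : ∀ l, act (g₁ * g₂) (e' l) = (-1 : F) • e' l := by
      intro l
      rw [S.mul _ _ hg₁z hg₂z, neg_one_smul]
      rcases eq_or_ne l 0 with rfl | hl
      · rw [t0, hg₁, rf_self (he'.on 0), rf_neg, r4 _ (fun k => h'.be 0 k)]
      · rw [tl l hl, map_neg, hg₁, rf_orth (he'.off 0 l hl.symm), r4 _ (fun k => h'.be l k)]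
    refine ⟨g₁ * g₂, -1, γ, hgz, by ring, hγ0, fun l => ?_, ?_, ?_, fun k hki hkj => ?_⟩
    · -- back to the old basis of the zone
      have hol : ∀ k, B (b k) (e l) = 0 := fun k => h.be l k
      refine on_part h'.orth h.hcard (c := fun x => x.isLeft = true) ?_ ?_
      · rintro (j | j) hj
        · exact hE j
        · simp at hj
      · rintro (j | j) hj
        · simp at hj
        · exact hol j
    · rw [S.mul _ _ hg₁z hg₂z, ti, map_neg, hg₁, rf_orth (h'.eb 0 i), r1, hv]
    · have e1 : act g₂ v = v := by rw [hv, map_smul, tk j hij.symm]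
      have e2 : B (e' 0) v = 0 := by rw [hv, map_smul, h'.eb 0 j, smul_zero]
      rw [hjv, map_smul, S.mul _ _ hg₁z hg₂z, e1, hg₁, rf_orth e2, r2]
    · rw [S.mul _ _ hg₁z hg₂z, tk k hki, hg₁, rf_orth (h'.eb 0 k), r3 k hki hkj]

/-- **the kill** -/
theorem Fr.kill [Finite F] [FiniteDimensional F V] {e : Fin 4 → V} {b : Fin 6 → V}
    (h : Fr P N0 z s ψ act B e b) (hd : ∑ i, cls (B (e i) (e i)) = 1) (hb : ∑ k, cls (B (b k) (b k)) = 0) :
    False := by
  classical
  have S := h.big.S
  -- the two parity conditions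
  have hfour : (4 : ZMod 2) = 0 := by decide
  have c1 : ∀ n ∈ N0, ∑ k, sg act n (b k) = 0 := by
    intro n hn
    have h1 : ((4 : ℕ) : ZMod 2) * sg act n (h.vec none) + ∑ k, sg act n (b k) = 0 :=
      congrArg Prod.fst (h.signs_eq rfl hn)
    rw [Nat.cast_ofNat, hfour, zero_mul, zero_add] at h1
    exact h1
  have c2 : ∀ n ∈ N0, sg act n (h.vec none) = ∑ k, sg act n (b k) * cls (B (b k) (b k)) := by
    intro n hn
    have h1 : sg act n (h.vec none) * ∑ i, cls (B (e i) (e i)) + ∑ k, sg act n (b k) * cls (B (b k) (b k)) = 0 :=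
      congrArg Prod.snd (h.signs_eq rfl hn)
    rw [hd, mul_one] at h1
    have h2 : ∀ a c : ZMod 2, a + c = 0 → a = c := by decide
    exact h2 _ _ h1
  -- the code
  obtain ⟨i, j, hij, hf, hD⟩ := code_swap {d | ∃ p ∈ P, d = fun k => toB (sg act p (b k))}
    (by
      rintro _ ⟨p, hp, rfl⟩
      exact par_toB _ (c1 p (h.big.C.PN hp)))
    (by
      rintro _ ⟨p, hp, rfl⟩ _ ⟨p', hp', rfl⟩
      refine ⟨p * p', mul_mem hp hp', ?_⟩
      funext k
      show (toB _ ^^ toB _) = _
      rw [← toB_add, h.sg_mul (h.big.C.PN hp) (h.big.C.PN hp') (h.eigB k) (h.vec_ne (some k))])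
    (fun k => toB (cls (B (b k) (b k)))) (par_toB _ hb)
  have hcl : cls (B (b i) (b i)) = cls (B (b j) (b j)) := toB_inj _ _ hf
  obtain ⟨g, a, γ, hgz, haa, hγ, ge, gi, gj, gk⟩ := h.exists_swap hd hij hcl
  have hclsw : ∀ k, cls (B (b (Equiv.swap i j k)) (b (Equiv.swap i j k))) = cls (B (b k) (b k)) := by
    intro k
    by_cases hk : k = i
    · subst hk; rw [Equiv.swap_apply_left, hcl]
    · by_cases hk' : k = j
      · subst hk'; rw [Equiv.swap_apply_right, hcl]
      · rw [Equiv.swap_apply_of_ne_of_ne hk hk']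
  -- the conjugate of `n`
  have hconj : ∀ n ∈ N0, ∀ n' ∈ N0, sg act n' (h.vec none) = sg act n (h.vec none) →
      (∀ k, sg act n' (b k) = sg act n (b (Equiv.swap i j k))) → g * n * g⁻¹ = n' ∨ g * n * g⁻¹ = z * n' := by
    intro n hn n' hn' h0 hk
    have hnz := h.big.nz hn
    have hn'z := h.big.nz hn'
    have hsgv : ∀ m ∈ N0, ∀ k, act m (b k) = sv (sg act m (b k)) (b k) := fun m hm k => by
      have := h.act_sg hm (h.eigB k)
      rw [this]; rfl
    have hsge : ∀ m ∈ N0, ∀ l, act m (e l) = sv (sg act m (h.vec none)) (e l) := fun m hm l => by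
      have := h.act_e hm l
      rw [this]; rfl
    have hact : ∀ v, act g (act n v) = act n' (act g v) := by
      refine h.orth.ext_map h.hcard (φ := act g ∘ₗ act n) (φ' := act n' ∘ₗ act g) ?_
      rintro (l | k)
      · simp only [LinearMap.comp_apply, Sum.elim_inl]
        rw [hsge n hn, map_sv, ge, map_smul, hsge n' hn', h0]
        rcases zcase (sg act n (h.vec none)) with e1 | e1
        · rw [e1, sv_zero, sv_zero]
        · rw [e1, sv_one, sv_one, smul_neg]
      · simp only [LinearMap.comp_apply, Sum.elim_inr]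
        by_cases hki : k = i
        · subst hki
          rw [hsgv n hn, map_sv, gi, map_neg, map_smul, hsgv n' hn', hk, Equiv.swap_apply_right]
          rcases zcase (sg act n (b k)) with e1 | e1
          · rw [e1, sv_zero, sv_zero]
          · rw [e1, sv_one, sv_one, smul_neg]
        · by_cases hkj : k = j
          · subst hkj
            rw [hsgv n hn, map_sv, gj, map_smul, hsgv n' hn', hk, Equiv.swap_apply_left]
            rcases zcase (sg act n (b k)) with e1 | e1
            · rw [e1, sv_zero, sv_zero]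
            · rw [e1, sv_one, sv_one, smul_neg]
          · rw [hsgv n hn, map_sv, gk k hki hkj, hsgv n' hn', hk, Equiv.swap_apply_of_ne_of_ne hki hkj]
    rcases S.same (Sit.mul_comm' hgz hnz) (Sit.mul_comm' hn'z hgz) (fun v => by
      rw [S.mul _ _ hgz hnz, S.mul _ _ hn'z hgz, hact]) with e1 | e1
    · left; rw [e1, mul_inv_cancel_right]
    · right; rw [e1, mul_assoc, mul_inv_cancel_right]
  have hfN : Finite N0 := Nat.finite_of_card_ne_zero (by rw [h.big.C.card]; norm_num)
  -- `g` normalises `P`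
  have gP : g ∈ normalizer (P : Set Γ) := by
    have hfP : Finite ((P : Set Γ) : Set Γ) := Finite.of_injective _ (Subgroup.inclusion_injective h.big.C.PN)
    apply mem_normalizer_fintype
    intro p hp
    obtain ⟨p', hp', hpp⟩ := hD _ ⟨p, hp, rfl⟩
    have hX : ∀ k, sg act p' (b k) = sg act p (b (Equiv.swap i j k)) := fun k =>
      (toB_inj _ _ (congrFun hpp k)).symm
    have h0 : sg act p' (h.vec none) = sg act p (h.vec none) := by
      rw [c2 p' (h.big.C.PN hp'), c2 p (h.big.C.PN hp)]
      rw [← Equiv.sum_comp (Equiv.swap i j) (fun k => sg act p (b k) * cls (B (b k) (b k)))]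
      exact Finset.sum_congr rfl fun k _ => by rw [hX, hclsw]
    rcases hconj p (h.big.C.PN hp) p' (h.big.C.PN hp') h0 hX with e1 | e1
    · rw [e1]; exact hp'
    · rw [e1]; exact mul_mem h.big.C.zP hp'
  -- `g` normalises `N0`
  have gN : g ∈ normalizer (N0 : Set Γ) := by
    have hfP : Finite ((N0 : Set Γ) : Set Γ) := hfN
    apply mem_normalizer_fintype
    intro n hn
    let x : Option (Fin 6) → ZMod 2 := fun k => match k with
      | none => sg act n (h.vec none)
      | some k => sg act n (b (Equiv.swap i j k))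
    obtain ⟨n', hn', hx⟩ := h.all_signs (x := x) (by
      refine Prod.ext ?_ ?_
      · show ((4 : ℕ) : ZMod 2) * x none + ∑ k, x (some k) = 0
        rw [Nat.cast_ofNat, hfour, zero_mul, zero_add]
        rw [← c1 n hn]
        exact Equiv.sum_comp (Equiv.swap i j) (fun k => sg act n (b k))
      · show x none * ∑ i, cls (B (e i) (e i)) + ∑ k, x (some k) * cls (B (b k) (b k)) = 0
        rw [hd, mul_one]
        have e1 : ∑ k, x (some k) * cls (B (b k) (b k)) = ∑ k, sg act n (b k) * cls (B (b k) (b k)) := by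
          rw [← Equiv.sum_comp (Equiv.swap i j) (fun k => sg act n (b k) * cls (B (b k) (b k)))]
          exact Finset.sum_congr rfl fun k _ => by rw [hclsw]
        rw [e1, ← c2 n hn]
        have h2 : ∀ a : ZMod 2, a + a = 0 := by decide
        exact h2 _)
    rcases hconj n hn n' hn' (hx none) (fun k => hx (some k)) with e1 | e1
    · rw [e1]; exact hn'
    · rw [e1]; exact mul_mem (zN h.big.C) hn'
  -- `g` is a `2`-element
  have g8 : g ^ 2 ^ (2 + 1) = 1 := by
    apply S.two_elt h.big.C.z_sq hgz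
    have e4 : g ^ 2 ^ 2 = g * g * (g * g) := by
      rw [show 2 ^ 2 = 2 * 2 from rfl, pow_mul, pow_two, pow_two]
    have hggz := Sit.mul_comm' hgz hgz
    have f1 : ∀ l, act (g * g) (e l) = e l := fun l => by
      rw [S.mul _ _ hgz hgz, ge, map_smul, ge, smul_smul, haa, one_smul]
    have f2 : act (g * g) (b i) = -b i := by
      rw [S.mul _ _ hgz hgz, gi, map_neg, map_smul, gj, smul_smul, mul_inv_cancel₀ hγ, one_smul]
    have f3 : act (g * g) (b j) = -b j := by
      rw [S.mul _ _ hgz hgz, gj, map_smul, gi, smul_neg, smul_smul, inv_mul_cancel₀ hγ, one_smul]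
    have f4 : ∀ k, k ≠ i → k ≠ j → act (g * g) (b k) = b k := fun k h1 h2 => by
      rw [S.mul _ _ hgz hgz, gk k h1 h2, gk k h1 h2]
    refine h.orth.ext_map h.hcard (φ' := LinearMap.id) ?_
    rintro (l | k)
    · simp only [Sum.elim_inl, LinearMap.id_apply]
      rw [e4, S.mul _ _ hggz hggz, f1, f1]
    · simp only [Sum.elim_inr, LinearMap.id_apply]
      rw [e4, S.mul _ _ hggz hggz]
      by_cases hki : k = i
      · subst hki; rw [f2, map_neg, f2, neg_neg]
      · by_cases hkj : k = j
        · subst hkj; rw [f3, map_neg, f3, neg_neg]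
        · rw [f4 k hki hkj, f4 k hki hkj]
  have gN0 : g ∈ N0 := mem_N0 h.big.C gP gN g8 (h.Z g gP a ge)
  -- but `g` is not diagonal
  have h1 : B (b j) (act g (b i)) = 0 := by
    rcases h.eigB i g gN0 with e1 | e1
    · rw [e1, h.bb.off j i hij.symm]
    · rw [e1, map_neg, h.bb.off j i hij.symm, neg_zero]
  rw [gi, map_neg, map_smul, neg_eq_zero, smul_eq_mul] at h1
  rcases mul_eq_zero.1 h1 with h2 | h2
  · exact hγ h2
  · exact h.bb.on j h2

theorem cls_prod [Finite F] (h2 : (2 : F) ≠ 0) {ι : Type*} (t : Finset ι) (c : ι → F) (hc : ∀ i, c i ≠ 0) :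
    cls (∏ i ∈ t, c i) = ∑ i ∈ t, cls (c i) := by
  classical
  induction t using Finset.induction_on with
  | empty =>
    have := cls_sq (1 : F)
    rw [mul_one] at this
    simpa using this
  | insert i t hi ih =>
    rw [Finset.prod_insert hi, Finset.sum_insert hi, cls_mul h2 (hc i) (Finset.prod_ne_zero_iff.2 fun j _ => hc j), ih]

/-- **the discriminant does not depend on the orthogonal basis** -/
theorem disc_inv [Finite F] [FiniteDimensional F V] (h2 : (2 : F) ≠ 0) {ι κ : Type*} [Fintype ι] [Fintype κ]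
    {f : ι → V} {g : κ → V} (hf : Orth B f) (hg : Orth B g) (hcf : Fintype.card ι = finrank F V)
    (hcg : Fintype.card κ = finrank F V) : ∑ i, cls (B (f i) (f i)) = ∑ i, cls (B (g i) (g i)) := by
  classical
  obtain ⟨σ⟩ : Nonempty (ι ≃ κ) := ⟨Fintype.equivOfCardEq (hcf.trans hcg.symm)⟩
  let M : Matrix ι ι F := Matrix.of fun i j => B (f i) (g (σ j)) / B (f i) (f i)
  have hM : M.transpose * Matrix.diagonal (fun i => B (f i) (f i)) * M =
      Matrix.diagonal (fun j => B (g (σ j)) (g (σ j))) := by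
    ext j k
    rw [Matrix.mul_apply]
    simp only [Matrix.mul_diagonal, Matrix.transpose_apply]
    have e1 : B (g (σ j)) (g (σ k)) = ∑ i, M i j * B (f i) (f i) * M i k := by
      conv_lhs => rw [hf.expand hcf (g (σ j))]
      simp only [map_sum, LinearMap.sum_apply, map_smul, LinearMap.smul_apply, smul_eq_mul]
      refine Finset.sum_congr rfl fun i _ => ?_
      simp only [M, Matrix.of_apply]
      have := hf.on i
      field_simp
    rw [← e1]
    by_cases hjk : j = k
    · subst hjk; rw [Matrix.diagonal_apply_eq]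
    · rw [Matrix.diagonal_apply_ne _ hjk]
      exact hg.off _ _ fun h0 => hjk (σ.injective h0)
  have hdet := congrArg Matrix.det hM
  rw [Matrix.det_mul, Matrix.det_mul, Matrix.det_transpose, Matrix.det_diagonal, Matrix.det_diagonal] at hdet
  have hp : ∏ i, B (f i) (f i) ≠ 0 := Finset.prod_ne_zero_iff.2 fun i _ => hf.on i
  have hq : ∏ i, B (g (σ i)) (g (σ i)) ≠ 0 := Finset.prod_ne_zero_iff.2 fun i _ => hg.on _
  have hD : M.det ≠ 0 := by
    intro h0
    rw [h0, zero_mul, zero_mul] at hdet
    exact hq hdet.symm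
  have h1 : cls (∏ i, B (g (σ i)) (g (σ i))) = cls (∏ i, B (f i) (f i)) := by
    rw [← hdet, show M.det * (∏ i, B (f i) (f i)) * M.det = (M.det * M.det) * ∏ i, B (f i) (f i) by ring,
      cls_mul h2 (mul_ne_zero hD hD) hp, cls_sq, zero_add]
  rw [cls_prod h2 _ _ fun i => hf.on i, cls_prod h2 _ _ fun i => hg.on (σ i)] at h1
  rw [← h1]
  exact Equiv.sum_comp σ (fun k => cls (B (g k) (g k)))

/-- **THEOREM**: in an orthogonal situation of dimension ten with non-square discriminant there is no configuration `CB`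
in which `N0` acts by isometries. -/
theorem Big.no [Finite F] [FiniteDimensional F V] (h : Big P N0 z s ψ act B) (hdim : finrank F V = 10)
    {f : Fin 10 → V} (hf : Orth B f) (hd : ∑ i, cls (B (f i) (f i)) = 1) : False := by
  obtain ⟨w, m, e, b, hfr⟩ := h.exists_frame
  have h1 := hfr.w_le
  have h2 := hfr.m_le
  have h3 := hfr.card
  rw [hdim] at h3
  obtain rfl : w = 4 := by omega
  obtain rfl : m = 6 := by omega
  have h4 := disc_inv h.S.two hfr.orth hf hfr.hcard (by rw [Fintype.card_fin, hdim])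
  rw [hd, Fintype.sum_sum_type] at h4
  simp only [Sum.elim_inl, Sum.elim_inr] at h4
  rcases zcase (∑ i, cls (B (e i) (e i))) with h5 | h5
  · exact hfr.disc_ne h5
  · rw [h5] at h4
    exact hfr.kill h5 (by simpa using h4)

end Cfsg.Agent.H512.Co3
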