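import Cfsg.Agent.H13.Co3.Def

/-!
# S1920, case B: the orthogonal situation (helper512)

`Sit z act B` : the centraliser of `z` in `Γ` acts by similarities on the orthogonal space `V` with kernel `⟨z⟩`, and
every product of two reflections `r_u r_v` with `B(u,u) B(v,v)` a square is induced.

Tools for the configuration `CB`: `mem_N0` (a `2`-element of `ker ψ` normalising `N0` is in `N0`), `psi_one` (an element
commuting modulo `⟨z⟩` with enough elements is in `ker ψ`), `no16` (`S₆` has no elementary abelian subgroup of order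
`16`), `Orth.expand` (orthogonal bases).
-/

set_option autoImplicit false

open Subgroup

namespace Cfsg.Agent.H512.Co3

open Cfsg.Agent.H13.Co3 (CB)

section perm

open Equiv Equiv.Perm Pointwise

/-- a permutation of six points commuting with all even permutations is trivial -/
theorem perm_one (σ : Perm (Fin 6)) (h : ∀ π : Perm (Fin 6), sign π = 1 → σ * π = π * σ) : σ = 1 := by
  by_contra hne
  obtain ⟨i, hi⟩ : ∃ i, σ i ≠ i := by
    by_contra hc
    push Not at hc
    exact hne (Equiv.ext fun i => by simpa using hc i)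
  obtain ⟨k, l, hkl, hki, hkj, hli, hlj⟩ : ∃ k l : Fin 6, k ≠ l ∧ k ≠ i ∧ k ≠ σ i ∧ l ≠ i ∧ l ≠ σ i := by
    clear hi
    generalize σ i = j
    revert i j
    decide
  have hs : sign (swap (σ i) k * swap k l) = 1 := by
    rw [Perm.sign_mul, sign_swap hkj.symm, sign_swap hkl]; decide
  have := congrArg (fun π : Perm (Fin 6) => π i) (h _ hs)
  simp only [Perm.mul_apply] at this
  rw [swap_apply_of_ne_of_ne (x := i) hki.symm hli.symm, swap_apply_of_ne_of_ne (x := i) hi.symm hki.symm,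
    swap_apply_of_ne_of_ne (x := σ i) hkj.symm hlj.symm, swap_apply_left] at this
  exact hkj this.symm

/-- `S₆` has no elementary abelian subgroup of order `16` -/
theorem no16 {A : Type*} [Group A] (f : A →* Perm (Fin 6)) (hf : Function.Injective f) (h2 : ∀ a : A, a * a = 1)
    (hA : 16 ≤ Nat.card A) : False := by
  have : Finite A := Finite.of_injective f hf
  have : Fact (Nat.Prime 2) := ⟨Nat.prime_two⟩
  have hcr : Nat.card f.range = Nat.card A := (Nat.card_congr (MonoidHom.ofInjective hf).toEquiv).symm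
  have hp : IsPGroup 2 A := fun a => ⟨1, by rw [pow_one, pow_two]; exact h2 a⟩
  obtain ⟨k, hk⟩ := (IsPGroup.iff_card).1 hp
  have h720 : Nat.card (Perm (Fin 6)) = 720 := by
    rw [Nat.card_eq_fintype_card, Fintype.card_perm]; rfl
  have hd : Nat.card A ∣ 720 := by
    rw [← h720, ← hcr]; exact Subgroup.card_subgroup_dvd_card _
  have hk4 : k ≤ 4 := by
    by_contra hlt
    push Not at hlt
    have h32 : (2 : ℕ) ^ 5 ∣ 720 := (pow_dvd_pow 2 hlt).trans (hk ▸ hd)
    revert h32; decide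
  have hk16 : Nat.card A = 16 := by
    refine le_antisymm ?_ hA
    rw [hk]
    calc 2 ^ k ≤ 2 ^ 4 := Nat.pow_le_pow_right (by norm_num) hk4
      _ = 16 := by norm_num
  have hpr : IsPGroup 2 f.range := by
    rintro ⟨_, a, rfl⟩
    refine ⟨1, Subtype.ext ?_⟩
    rw [pow_one, pow_two]
    simp only [Subgroup.coe_mul, Subgroup.coe_one]
    rw [← map_mul, h2, map_one]
  obtain ⟨Q, hQ⟩ := hpr.exists_le_sylow
  have hQc : Nat.card (Q : Subgroup (Perm (Fin 6))) ≤ 16 := by
    obtain ⟨l, hl⟩ := (IsPGroup.iff_card).1 Q.2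
    have hd' : Nat.card (Q : Subgroup (Perm (Fin 6))) ∣ 720 := by
      rw [← h720]; exact Subgroup.card_subgroup_dvd_card _
    have hl' : Nat.card (Q : Subgroup (Perm (Fin 6))) = 2 ^ l := hl
    rw [hl'] at hd' ⊢
    have hl4 : l ≤ 4 := by
      by_contra hlt
      push Not at hlt
      have h32 : (2 : ℕ) ^ 5 ∣ 720 := (pow_dvd_pow 2 hlt).trans hd'
      revert h32; decide
    calc 2 ^ l ≤ 2 ^ 4 := Nat.pow_le_pow_right (by norm_num) hl4
      _ = 16 := by norm_num
  have hQe : f.range = (Q : Subgroup (Perm (Fin 6))) := Subgroup.eq_of_le_of_card_ge hQ (by rw [hcr]; omega)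
  -- a four-cycle
  let c : Perm (Fin 6) := swap 0 1 * swap 1 2 * swap 2 3
  have hc4 : c ^ 4 = 1 := by decide
  have hc2 : c * c ≠ 1 := by decide
  have hcp : IsPGroup 2 (zpowers c) := by
    rintro ⟨_, k, rfl⟩
    refine ⟨2, Subtype.ext ?_⟩
    simp only [SubmonoidClass.coe_pow, OneMemClass.coe_one]
    rw [← zpow_natCast, zpow_comm, zpow_natCast]
    norm_num [hc4]
  obtain ⟨R, hR⟩ := hcp.exists_le_sylow
  obtain ⟨g, hg⟩ := MulAction.exists_smul_eq (Perm (Fin 6)) Q R
  have hcR : c ∈ (g • Q : Sylow 2 (Perm (Fin 6))) := by rw [hg]; exact hR (mem_zpowers c)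
  rw [Sylow.smul_def] at hcR
  have hcR' : c ∈ MulAut.conj g • (Q : Subgroup (Perm (Fin 6))) := hcR
  rw [← hQe, mem_smul_pointwise_iff_exists] at hcR'
  obtain ⟨_, ⟨a, rfl⟩, ha⟩ := hcR'
  apply hc2
  rw [← ha, ← smul_mul', ← map_mul, h2, map_one, smul_one]

/-- a non-trivial subgroup normalised by `A₆` contains `A₆` -/
theorem even_le (M : Subgroup (Perm (Fin 6))) (hn : ∀ π : Perm (Fin 6), sign π = 1 → ∀ m ∈ M, π * m * π⁻¹ ∈ M)
    {m : Perm (Fin 6)} (hm : m ∈ M) (hm1 : m ≠ 1) : ∀ π : Perm (Fin 6), sign π = 1 → π ∈ M := by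
  obtain ⟨π, hπ, hc⟩ : ∃ π : Perm (Fin 6), sign π = 1 ∧ m * π ≠ π * m := by
    by_contra hcon
    push Not at hcon
    exact hm1 (perm_one m hcon)
  have : IsSimpleGroup (alternatingGroup (Fin 6)) := alternatingGroup.isSimpleGroup (by simp)
  let M' : Subgroup (alternatingGroup (Fin 6)) := M.comap (alternatingGroup (Fin 6)).subtype
  have hM' : M'.Normal := ⟨fun x hx g => hn g g.2 x hx⟩
  rcases hM'.eq_bot_or_eq_top with h | h
  · exfalso
    have hcm : m * (π * m⁻¹ * π⁻¹) ∈ M := mul_mem hm (hn π hπ _ (inv_mem hm))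
    have hce : sign (m * (π * m⁻¹ * π⁻¹)) = 1 := by
      simp only [Perm.sign_mul, Perm.sign_inv, hπ]
      simp
    have h1 : (⟨m * (π * m⁻¹ * π⁻¹), hce⟩ : alternatingGroup (Fin 6)) ∈ M' := hcm
    rw [h, mem_bot, Subtype.ext_iff] at h1
    apply hc
    have h1' : m * (π * m⁻¹ * π⁻¹) = 1 := h1
    calc m * π = m * (π * m⁻¹ * π⁻¹) * (π * m) := by group
      _ = π * m := by rw [h1', one_mul]
  · intro ρ hρ
    have h1 : (⟨ρ, hρ⟩ : alternatingGroup (Fin 6)) ∈ M' := by rw [h]; exact mem_top _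
    exact h1

end perm

section tools

open Equiv.Perm

variable {G : Type*} [Group G] {P N0 : Subgroup G} {z s : G} {ψ : ↥(normalizer (P : Set G)) →* Equiv.Perm (Fin 6)}

theorem zN (C : CB P N0 z s ψ) : z ∈ N0 := C.PN C.zP

theorem z_comm (C : CB P N0 z s ψ) {n : G} (hn : n ∈ N0) : n * z = z * n := by
  rw [← C.s_sq, ← mul_assoc, C.s_cen n hn, mul_assoc, C.s_cen n hn, mul_assoc]

theorem psi_z (C : CB P N0 z s ψ) (h : z ∈ normalizer (P : Set G)) : ψ ⟨z, h⟩ = 1 := C.psi_N z (zN C)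

/-- **a `2`-element of `ker ψ` normalising `N0` is in `N0`** -/
theorem mem_N0 (C : CB P N0 z s ψ) {g : G} (hg : g ∈ normalizer (P : Set G))
    (hgN : g ∈ normalizer (N0 : Set G)) {k : ℕ} (h2 : g ^ 2 ^ k = 1) (h1 : ψ ⟨g, hg⟩ = 1) : g ∈ N0 := by
  have : Fact (Nat.Prime 2) := ⟨Nat.prime_two⟩
  have hz2 : IsPGroup 2 (zpowers g) := by
    rintro ⟨_, j, rfl⟩
    refine ⟨k, Subtype.ext ?_⟩
    simp only [SubmonoidClass.coe_pow, OneMemClass.coe_one]
    rw [← zpow_natCast, zpow_comm, zpow_natCast, h2, one_zpow]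
  have hQ2 : IsPGroup 2 (zpowers g ⊔ N0 : Subgroup G) :=
    IsPGroup.to_sup_of_normal_right' hz2 C.N_two (by rw [zpowers_le]; exact hgN)
  let K : Subgroup G := ψ.ker.map (normalizer (P : Set G)).subtype
  have hQK : zpowers g ⊔ N0 ≤ K := by
    refine sup_le ?_ ?_
    · rw [zpowers_le]
      exact ⟨⟨g, hg⟩, h1, rfl⟩
    · intro n hn
      exact ⟨⟨n, C.NH hn⟩, C.psi_N n hn, rfl⟩
  obtain ⟨m, hm, hcard⟩ := C.ker_card
  have hKc : Nat.card K = 64 * m := by
    rw [Subgroup.card_map_of_injective (normalizer (P : Set G)).subtype_injective]; exact hcard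
  have hm0 : 0 < m := hm.pos
  have hKf : Finite K := Nat.finite_of_card_ne_zero (by rw [hKc]; positivity)
  have hQf : Finite (zpowers g ⊔ N0 : Subgroup G) := Finite.of_injective _ (Subgroup.inclusion_injective hQK)
  obtain ⟨l, hl⟩ := (IsPGroup.iff_card).1 hQ2
  have hdvd : Nat.card (zpowers g ⊔ N0 : Subgroup G) ∣ 64 * m := by
    rw [← hKc]; exact Subgroup.card_dvd_of_le hQK
  rw [hl] at hdvd
  have h64 : 2 ^ l ∣ 64 := (Nat.Coprime.pow_left l (Nat.coprime_two_left.2 hm)).dvd_of_dvd_mul_right hdvd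
  have hle : Nat.card (zpowers g ⊔ N0 : Subgroup G) ≤ Nat.card N0 := by
    rw [hl, C.card]; exact Nat.le_of_dvd (by norm_num) h64
  have he : N0 = zpowers g ⊔ N0 := Subgroup.eq_of_le_of_card_ge le_sup_right hle
  rw [he]
  exact le_sup_left (a := zpowers g) (mem_zpowers g)

/-- **an element commuting modulo `⟨z⟩` with elements inducing all even permutations is in `ker ψ`** -/
theorem psi_one (C : CB P N0 z s ψ) {g : G} (hg : g ∈ normalizer (P : Set G))
    (h : ∀ π : Equiv.Perm (Fin 6), sign π = 1 → ∃ k : ↥(normalizer (P : Set G)), ψ k = π ∧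
      (g * k = k * g ∨ g * k = z * (k * g))) : ψ ⟨g, hg⟩ = 1 := by
  apply perm_one
  intro π hπ
  obtain ⟨k, rfl, hk⟩ := h π hπ
  rcases hk with hk | hk
  · rw [← map_mul, ← map_mul]
    congr 1
    exact Subtype.ext hk
  · have hzH := C.NH (zN C)
    have e : (⟨g, hg⟩ : ↥(normalizer (P : Set G))) * k = ⟨z, hzH⟩ * (k * ⟨g, hg⟩) := Subtype.ext hk
    rw [← map_mul, e, map_mul, psi_z C, one_mul, map_mul]

end tools



section forms

open Module

variable {F V : Type*} [Field F] [AddCommGroup V] [Module F V]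

/-- the reflection in `u` -/
noncomputable def rf (B : V →ₗ[F] V →ₗ[F] F) (u w : V) : V := w - (2 * B u w / B u u) • u

theorem rf_self {B : V →ₗ[F] V →ₗ[F] F} {u : V} (h : B u u ≠ 0) : rf B u u = -u := by
  unfold rf
  rw [mul_div_assoc, div_self h, mul_one, two_smul]; abel

theorem rf_orth {B : V →ₗ[F] V →ₗ[F] F} {u w : V} (h : B u w = 0) : rf B u w = w := by
  unfold rf
  rw [h, mul_zero, zero_div, zero_smul, sub_zero]

theorem rf_smul (B : V →ₗ[F] V →ₗ[F] F) (u w : V) (a : F) : rf B u (a • w) = a • rf B u w := by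
  unfold rf
  rw [map_smul, smul_sub, smul_smul, smul_eq_mul]
  congr 2
  ring

theorem rf_neg (B : V →ₗ[F] V →ₗ[F] F) (u w : V) : rf B u (-w) = -rf B u w := by
  have := rf_smul B u w (-1)
  simpa using this

/-- pairwise orthogonal non-isotropic vectors -/
structure Orth (B : V →ₗ[F] V →ₗ[F] F) {ι : Type*} (f : ι → V) : Prop where
  off : ∀ i j, i ≠ j → B (f i) (f j) = 0
  on : ∀ i, B (f i) (f i) ≠ 0

namespace Orth

variable {B : V →ₗ[F] V →ₗ[F] F} {ι : Type*} {f : ι → V}

theorem B_sum [Fintype ι] (h : Orth B f) (a : ι → F) (j : ι) : B (f j) (∑ i, a i • f i) = a j * B (f j) (f j) := by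
  classical
  rw [map_sum, Finset.sum_eq_single j]
  · rw [map_smul, smul_eq_mul]
  · intro i _ hij
    rw [map_smul, h.off j i (Ne.symm hij), smul_zero]
  · intro hj; exact absurd (Finset.mem_univ j) hj

theorem linInd [Fintype ι] (h : Orth B f) : LinearIndependent F f := by
  rw [Fintype.linearIndependent_iff]
  intro a ha j
  have h1 := h.B_sum a j
  rw [ha, map_zero] at h1
  exact (mul_eq_zero.1 h1.symm).resolve_right (h.on j)

theorem expand [FiniteDimensional F V] [Fintype ι] (h : Orth B f) (hc : Fintype.card ι = finrank F V) (v : V) :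
    v = ∑ i, (B (f i) v / B (f i) (f i)) • f i := by
  have hsp : Submodule.span F (Set.range f) = ⊤ := h.linInd.span_eq_top_of_card_eq_finrank' hc
  have hv : v ∈ Submodule.span F (Set.range f) := by rw [hsp]; exact Submodule.mem_top
  obtain ⟨a, ha⟩ := (Submodule.mem_span_range_iff_exists_fun F).1 hv
  have h2 : ∀ j, B (f j) v / B (f j) (f j) = a j := fun j => by
    rw [← ha, h.B_sum a j, mul_div_assoc, div_self (h.on j), mul_one]
  simp only [h2]
  exact ha.symm

theorem ext_vec [FiniteDimensional F V] [Fintype ι] (h : Orth B f) (hc : Fintype.card ι = finrank F V) {v w : V}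
    (hvw : ∀ i, B (f i) v = B (f i) w) : v = w := by
  rw [h.expand hc v, h.expand hc w]
  simp only [hvw]

theorem ext_map [FiniteDimensional F V] [Fintype ι] (h : Orth B f) (hc : Fintype.card ι = finrank F V) {φ φ' : V →ₗ[F] V}
    (he : ∀ i, φ (f i) = φ' (f i)) (v : V) : φ v = φ' v := by
  rw [h.expand hc v]
  simp only [map_sum, map_smul, he]

end Orth

/-- **The orthogonal situation.** -/
structure Sit {Γ : Type*} [Group Γ] (z : Γ) (act : Γ → V →ₗ[F] V) (B : V →ₗ[F] V →ₗ[F] F) : Prop where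
  two : (2 : F) ≠ 0
  symm : ∀ u v, B u v = B v u
  nondeg : ∀ u, (∀ v, B u v = 0) → u = 0
  one : act 1 = LinearMap.id
  mul : ∀ g h : Γ, g * z = z * g → h * z = z * h → ∀ v, act (g * h) v = act g (act h v)
  sim : ∀ g : Γ, g * z = z * g → ∃ μ : F, μ ≠ 0 ∧ ∀ u v, B (act g u) (act g v) = μ * B u v
  act_z : act z = LinearMap.id
  ker : ∀ g : Γ, g * z = z * g → (∀ v, act g v = v) → g = 1 ∨ g = z
  lift : ∀ u v : V, ∀ c : F, c ≠ 0 → c * c = B u u * B v v →
    ∃ g : Γ, g * z = z * g ∧ ∀ w, act g w = rf B u (rf B v w)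

namespace Sit

variable {Γ : Type*} [Group Γ] {z : Γ} {act : Γ → V →ₗ[F] V} {B : V →ₗ[F] V →ₗ[F] F}

theorem one' (S : Sit z act B) (v : V) : act 1 v = v := by rw [S.one]; rfl

theorem act_z' (S : Sit z act B) (v : V) : act z v = v := by rw [S.act_z]; rfl

theorem inv_comm {g : Γ} (hg : g * z = z * g) : g⁻¹ * z = z * g⁻¹ := by
  rw [inv_mul_eq_iff_eq_mul, ← mul_assoc, hg, mul_inv_cancel_right]

theorem mul_comm' {g h : Γ} (hg : g * z = z * g) (hh : h * z = z * h) : g * h * z = z * (g * h) := by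
  rw [mul_assoc, hh, ← mul_assoc, hg, mul_assoc]

theorem inv_act (S : Sit z act B) {g : Γ} (hg : g * z = z * g) (v : V) : act g⁻¹ (act g v) = v := by
  rw [← S.mul _ _ (inv_comm hg) hg, inv_mul_cancel, S.one']

theorem act_inv (S : Sit z act B) {g : Γ} (hg : g * z = z * g) (v : V) : act g (act g⁻¹ v) = v := by
  rw [← S.mul _ _ hg (inv_comm hg), mul_inv_cancel, S.one']

theorem act_inj (S : Sit z act B) {g : Γ} (hg : g * z = z * g) {v w : V} (h : act g v = act g w) : v = w := by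
  rw [← S.inv_act hg v, h, S.inv_act hg]

/-- two elements of `C(z)` with the same action differ by an element of `⟨z⟩` -/
theorem same (S : Sit z act B) {g h : Γ} (hg : g * z = z * g) (hh : h * z = z * h) (e : ∀ v, act g v = act h v) :
    g = h ∨ g = z * h := by
  have h1 : g * h⁻¹ * z = z * (g * h⁻¹) := mul_comm' hg (inv_comm hh)
  have h2 : ∀ v, act (g * h⁻¹) v = v := fun v => by
    rw [S.mul _ _ hg (inv_comm hh), e, S.act_inv hh]
  rcases S.ker _ h1 h2 with h3 | h3
  · left; exact mul_inv_eq_one.1 h3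
  · right; exact mul_inv_eq_iff_eq_mul.1 h3

theorem pow_comm' {g : Γ} (hg : g * z = z * g) (k : ℕ) : g ^ k * z = z * g ^ k := (show Commute g z from hg).pow_left k

theorem act_pow (S : Sit z act B) {g : Γ} (hg : g * z = z * g) (k : ℕ) (v : V) : act (g ^ k) v = (act g)^[k] v := by
  induction k with
  | zero => rw [pow_zero, S.one']; rfl
  | succ k ih => rw [pow_succ', S.mul _ _ hg (pow_comm' hg k), ih, Function.iterate_succ_apply']

/-- if `g` acts with order dividing `2 ^ k` then it is a `2`-element -/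
theorem two_elt (S : Sit z act B) (hz : z * z = 1) {g : Γ} (hg : g * z = z * g) {k : ℕ}
    (h : ∀ v, act (g ^ 2 ^ k) v = v) : g ^ 2 ^ (k + 1) = 1 := by
  rw [pow_succ, pow_mul]
  rcases S.ker _ (pow_comm' hg _) h with h1 | h1
  · rw [h1, one_pow]
  · rw [h1, pow_two, hz]

end Sit

/-- **The configuration in the orthogonal situation.** -/
structure Big {Γ : Type*} [Group Γ] (P N0 : Subgroup Γ) (z s : Γ)
    (ψ : ↥(normalizer (P : Set Γ)) →* Equiv.Perm (Fin 6)) (act : Γ → V →ₗ[F] V) (B : V →ₗ[F] V →ₗ[F] F) : Prop where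
  S : Sit z act B
  C : CB P N0 z s ψ
  iso : ∀ n ∈ N0, ∀ u v, B (act n u) (act n v) = B u v

/-- common eigenvectors of `N0` -/
def Eig {Γ : Type*} [Group Γ] (N0 : Subgroup Γ) (act : Γ → V →ₗ[F] V) (u : V) : Prop :=
  ∀ n ∈ N0, act n u = u ∨ act n u = -u

namespace Big

variable {Γ : Type*} [Group Γ] {P N0 : Subgroup Γ} {z s : Γ} {ψ : ↥(normalizer (P : Set Γ)) →* Equiv.Perm (Fin 6)}
  {act : Γ → V →ₗ[F] V} {B : V →ₗ[F] V →ₗ[F] F}

theorem nz (h : Big P N0 z s ψ act B) {n : Γ} (hn : n ∈ N0) : n * z = z * n := z_comm h.C hn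

theorem act_sq (h : Big P N0 z s ψ act B) {n : Γ} (hn : n ∈ N0) (v : V) : act n (act n v) = v := by
  rw [← h.S.mul _ _ (h.nz hn) (h.nz hn)]
  rcases h.C.sq n hn with e | e
  · rw [e, h.S.one']
  · rw [e, h.S.act_z']

theorem act_comm (h : Big P N0 z s ψ act B) {n m : Γ} (hn : n ∈ N0) (hm : m ∈ N0) (v : V) :
    act n (act m v) = act m (act n v) := by
  rw [← h.S.mul _ _ (h.nz hn) (h.nz hm), ← h.S.mul _ _ (h.nz hm) (h.nz hn)]
  rcases h.C.comm n hn m hm with e | e
  · rw [e]
  · rw [e, h.S.mul _ _ rfl (Sit.mul_comm' (h.nz hm) (h.nz hn)), h.S.act_z']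

theorem adj (h : Big P N0 z s ψ act B) {n : Γ} (hn : n ∈ N0) (u v : V) : B (act n u) v = B u (act n v) := by
  rw [← h.iso n hn u (act n v), h.act_sq hn]

/-- **KEY (*)**: an element of `C(z)` commuting with the action of `N0` normalises `P` and `N0` -/
theorem key (h : Big P N0 z s ψ act B) {g : Γ} (hz : g * z = z * g)
    (hc : ∀ n ∈ N0, ∀ v, act g (act n v) = act n (act g v)) :
    g ∈ normalizer (P : Set Γ) ∧ g ∈ normalizer (N0 : Set Γ) := by
  have h1 : ∀ n ∈ N0, g * n = n * g ∨ g * n = z * (n * g) := by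
    intro n hn
    apply h.S.same (Sit.mul_comm' hz (h.nz hn)) (Sit.mul_comm' (h.nz hn) hz)
    intro v
    rw [h.S.mul _ _ hz (h.nz hn), h.S.mul _ _ (h.nz hn) hz, hc n hn]
  refine ⟨h.C.key h1, ?_⟩
  have hf : Finite N0 := Nat.finite_of_card_ne_zero (by rw [h.C.card]; norm_num)
  have : Finite ((N0 : Set Γ) : Set Γ) := hf
  apply mem_normalizer_fintype
  intro n hn
  rcases h1 n hn with e | e
  · rw [e, mul_inv_cancel_right]; exact hn
  · rw [e, mul_assoc, mul_inv_cancel_right]; exact mul_mem (zN h.C) hn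

theorem rf_act (h : Big P N0 z s ψ act B) {u : V} (hu : Eig N0 act u) {n : Γ} (hn : n ∈ N0) (w : V) :
    act n (rf B u w) = rf B u (act n w) := by
  unfold rf
  rw [map_sub, map_smul, ← h.adj hn u w]
  rcases hu n hn with e | e
  · rw [e]
  · rw [e]
    simp only [map_neg, LinearMap.neg_apply, smul_neg, mul_neg, neg_div, neg_smul]

end Big

end forms

end Cfsg.Agent.H512.Co3
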