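import Cfsg.Agent.H512.Co3.Frame

/-!
# S1920, case B: the zone `V_0` (helper512)

`Fr` : an orthogonal basis `e_i` (`i < w`, one character, `w ≥ 3`), `b_k` (`k < m`) of eigenvectors of `N0` such that every
element of `H` acting as a scalar on the span of the `e_i` is in `ker ψ`.
-/

set_option autoImplicit false

open Subgroup

namespace Cfsg.Agent.H512.Co3

open Cfsg.Agent.H13.Co3 (CB)
open Module

variable {F V : Type*} [Field F] [AddCommGroup V] [Module F V]
variable {Γ : Type*} [Group Γ] {P N0 : Subgroup Γ} {z s : Γ} {ψ : ↥(normalizer (P : Set Γ)) →* Equiv.Perm (Fin 6)}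
  {act : Γ → V →ₗ[F] V} {B : V →ₗ[F] V →ₗ[F] F}

theorem three_pair : ∀ a b c : ZMod 2, a = b ∨ a = c ∨ b = c := by decide

/-- the elements of `H` acting on `V_0` only -/
def zoneGrp (h : Big P N0 z s ψ act B) {ι : Type*} (f : ι → V) (c : ι → Prop) :
    Subgroup ↥(normalizer (P : Set Γ)) where
  carrier := {g | (∀ n ∈ N0, ∀ v, act g (act n v) = act n (act g v)) ∧ ∀ i, ¬ c i → act g (f i) = f i}
  mul_mem' := by
    intro a b ⟨ha, ha'⟩ ⟨hb, hb'⟩
    have haz := h.C.z_cen a a.2
    have hbz := h.C.z_cen b b.2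
    refine ⟨fun n hn v => ?_, fun i hi => ?_⟩
    · rw [Subgroup.coe_mul, h.S.mul _ _ haz hbz, h.S.mul _ _ haz hbz, hb n hn, ha n hn]
    · rw [Subgroup.coe_mul, h.S.mul _ _ haz hbz, hb' i hi, ha' i hi]
  one_mem' := by
    refine ⟨fun n hn v => ?_, fun i hi => ?_⟩
    · rw [Subgroup.coe_one, h.S.one', h.S.one']
    · rw [Subgroup.coe_one, h.S.one']
  inv_mem' := by
    intro a ⟨ha, ha'⟩
    have haz := h.C.z_cen a a.2
    refine ⟨fun n hn v => ?_, fun i hi => ?_⟩
    · apply h.S.act_inj haz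
      rw [Subgroup.coe_inv, h.S.act_inv haz, ha n hn, h.S.act_inv haz]
    · apply h.S.act_inj haz
      rw [Subgroup.coe_inv, h.S.act_inv haz, ha' i hi]

/-- a linear map which is trivial (scalar) on a part of an orthogonal basis is so on its span -/
theorem on_part [FiniteDimensional F V] {ι : Type*} [Fintype ι] {f : ι → V} (hf : Orth B f)
    (hcard : Fintype.card ι = finrank F V) {c : ι → Prop} {φ : V →ₗ[F] V} {a : F} (hφ : ∀ i, c i → φ (f i) = a • f i)
    {v : V} (hv : ∀ i, ¬ c i → B (f i) v = 0) : φ v = a • v := by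
  classical
  rw [hf.expand hcard v, map_sum, Finset.smul_sum]
  refine Finset.sum_congr rfl fun i _ => ?_
  by_cases hi : c i
  · rw [map_smul, hφ i hi, smul_comm]
  · rw [hv i hi, zero_div, zero_smul, map_zero, smul_zero]

/-- **the zone**: if three vectors of the basis have the same character then the elements of `H` acting as a scalar on
their class are in `ker ψ` -/
theorem Big.zone [Finite F] [FiniteDimensional F V] (h : Big P N0 z s ψ act B) {ι : Type*} [Fintype ι] {f : ι → V}
    (hf : Orth B f) (hcard : Fintype.card ι = finrank F V) (he : ∀ i, Eig N0 act (f i)) {i₀ j₀ l₀ : ι} (hij : i₀ ≠ j₀)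
    (hil : i₀ ≠ l₀) (hjl : j₀ ≠ l₀) (sj : Big.Same N0 act (f i₀) (f j₀)) (sl : Big.Same N0 act (f i₀) (f l₀)) {g : Γ}
    (hg : g ∈ normalizer (P : Set Γ)) {a : F} (hga : ∀ i, Big.Same N0 act (f i₀) (f i) → act g (f i) = a • f i) :
    ψ ⟨g, hg⟩ = 1 := by
  classical
  have h2 := h.S.two
  let c : ι → Prop := fun i => Big.Same N0 act (f i₀) (f i)
  have hzz : z * z = 1 := h.C.z_sq
  -- an element of the zone group which is not in the kernel
  have step : ∀ i j l : ι, i ≠ j → i ≠ l → j ≠ l → c i → c j → c l → cls (B (f i) (f i)) = cls (B (f j) (f j)) →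
      ∃ t ∈ zoneGrp h f c, ψ t ≠ 1 := by
    intro i j l hij hil hjl ci cj cl hcl
    obtain ⟨d, hd0, hdd⟩ := cls_eq (hf.on i) (hf.on j) h2 hcl
    obtain ⟨t, htz, ht⟩ := h.S.lift (f i) (f j) d hd0 hdd
    have ti : act t (f i) = -f i := by rw [ht, rf_orth (hf.off _ _ hij.symm), rf_self (hf.on _)]
    have tj : act t (f j) = -f j := by rw [ht, rf_self (hf.on _), rf_neg, rf_orth (hf.off _ _ hij)]
    have tq : ∀ m, m ≠ i → m ≠ j → act t (f m) = f m := fun m hi hj => by
      rw [ht, rf_orth (hf.off _ _ hj.symm), rf_orth (hf.off _ _ hi.symm)]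
    have tsc : ∀ m, ∃ b : F, act t (f m) = b • f m := by
      intro m
      rcases eq_or_ne m i with rfl | hi
      · exact ⟨-1, by rw [ti, neg_one_smul]⟩
      rcases eq_or_ne m j with rfl | hj
      · exact ⟨-1, by rw [tj, neg_one_smul]⟩
      · exact ⟨1, by rw [tq m hi hj, one_smul]⟩
    have tc := h.diag_comm hf hcard he tsc
    obtain ⟨tH, tN⟩ := h.key htz tc
    refine ⟨⟨t, tH⟩, ⟨tc, fun m hm => tq m (fun e => hm (e ▸ ci)) (fun e => hm (e ▸ cj))⟩, fun hψ => ?_⟩
    have t2 : t ^ 2 ^ (1 + 1) = 1 := by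
      apply h.S.two_elt hzz htz
      intro v
      rw [pow_one, pow_two, h.S.mul _ _ htz htz]
      refine hf.ext_map hcard (φ := act t ∘ₗ act t) (φ' := LinearMap.id) ?_ v
      intro m
      simp only [LinearMap.comp_apply, LinearMap.id_apply]
      rcases eq_or_ne m i with rfl | hi
      · rw [ti, map_neg, ti, neg_neg]
      rcases eq_or_ne m j with rfl | hj
      · rw [tj, map_neg, tj, neg_neg]
      · rw [tq m hi hj, tq m hi hj]
    have tN0 := mem_N0 h.C tH tN t2 hψ
    -- uniform sign on the class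
    have h3 := (Big.Same.trans (Big.Same.symm ci) cl) t tN0
    rw [ti, tq l hil.symm hjl.symm] at h3
    have h4 : -f i = f i := h3.2 rfl
    have h5 : (2 : F) • f i = 0 := by rw [two_smul]; nth_rw 1 [← h4]; exact neg_add_cancel _
    rcases smul_eq_zero.1 h5 with h6 | h6
    · exact h2 h6
    · exact hf.on i (by rw [h6, map_zero])
  obtain ⟨t, ht, htψ⟩ : ∃ t ∈ zoneGrp h f c, ψ t ≠ 1 := by
    have c0 : c i₀ := fun n _ => Iff.rfl
    rcases three_pair (cls (B (f i₀) (f i₀))) (cls (B (f j₀) (f j₀))) (cls (B (f l₀) (f l₀))) with e | e | e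
    · exact step i₀ j₀ l₀ hij hil hjl c0 sj sl e
    · exact step i₀ l₀ j₀ hil hij hjl.symm c0 sl sj e
    · exact step j₀ l₀ i₀ hjl hij.symm hil.symm sj sl c0 e
  -- the zone group induces all even permutations
  have hev : ∀ π : Equiv.Perm (Fin 6), Equiv.Perm.sign π = 1 → π ∈ (zoneGrp h f c).map ψ := by
    refine even_le _ ?_ ⟨t, ht, rfl⟩ htψ
    rintro π hπ _ ⟨u, ⟨hu, hu'⟩, rfl⟩
    obtain ⟨k, hk, rfl⟩ := h.C.even π hπ
    have hkz : (k : Γ) * z = z * k := hk z (zN h.C)
    have hka : ∀ n ∈ N0, ∀ v, act k (act n v) = act n (act k v) := fun n hn v => by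
      rw [← h.S.mul _ _ hkz (h.nz hn), hk n hn, h.S.mul _ _ (h.nz hn) hkz]
    have hkz' := Sit.inv_comm hkz
    have hka' : ∀ n ∈ N0, ∀ v, act (k : Γ)⁻¹ (act n v) = act n (act (k : Γ)⁻¹ v) := fun n hn v => by
      apply h.S.act_inj hkz
      rw [h.S.act_inv hkz, hka n hn, h.S.act_inv hkz]
    have huz := h.C.z_cen u u.2
    refine ⟨k * u * k⁻¹, ⟨fun n hn v => ?_, fun i hi => ?_⟩, by rw [map_mul, map_mul, map_inv]⟩
    · simp only [Subgroup.coe_mul, Subgroup.coe_inv]
      rw [h.S.mul _ _ (Sit.mul_comm' hkz huz) hkz', h.S.mul _ _ hkz huz, h.S.mul _ _ (Sit.mul_comm' hkz huz) hkz',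
        h.S.mul _ _ hkz huz, hka' n hn, hu n hn, hka n hn]
    · simp only [Subgroup.coe_mul, Subgroup.coe_inv]
      rw [h.S.mul _ _ (Sit.mul_comm' hkz huz) hkz', h.S.mul _ _ hkz huz]
      have e1 : act (u : Γ) (act (k : Γ)⁻¹ (f i)) = (1 : F) • act (k : Γ)⁻¹ (f i) := by
        refine on_part hf hcard (c := fun m => ¬ c m) (fun m hm => by rw [one_smul]; exact hu' m hm) ?_
        intro m hm
        have hm' : c m := not_not.1 hm
        exact h.coef0 hka' (he i) (he m) fun hs => hi (Big.Same.trans hm' hs.symm)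
      rw [e1, one_smul, h.S.act_inv hkz]
  -- conclusion
  apply psi_one h.C hg
  intro π hπ
  obtain ⟨u, ⟨hu, hu'⟩, rfl⟩ := hev π hπ
  refine ⟨u, rfl, ?_⟩
  have hgz := h.C.z_cen g hg
  have huz := h.C.z_cen u u.2
  have ha0 : a ≠ 0 := by
    rintro rfl
    have e := hga i₀ (fun n _ => Iff.rfl)
    rw [zero_smul] at e
    have e2 : f i₀ = 0 := h.S.act_inj hgz (by rw [e, map_zero])
    exact hf.on i₀ (by rw [e2, map_zero])
  apply h.S.same (Sit.mul_comm' hgz huz) (Sit.mul_comm' huz hgz)
  intro v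
  rw [h.S.mul _ _ hgz huz, h.S.mul _ _ huz hgz]
  refine hf.ext_map hcard (φ := act g ∘ₗ act (u : Γ)) (φ' := act (u : Γ) ∘ₗ act g) ?_ v
  intro i
  simp only [LinearMap.comp_apply]
  by_cases hi : c i
  · rw [hga i hi, map_smul]
    refine on_part hf hcard (c := c) (fun m hm => hga m hm) ?_
    intro m hm
    exact h.coef0 hu (he i) (he m) fun hs => hm (Big.Same.trans hi hs)
  · rw [hu' i hi]
    symm
    have e1 : act (u : Γ) (act g (f i)) = (1 : F) • act g (f i) := by
      refine on_part hf hcard (c := fun m => ¬ c m) (fun m hm => by rw [one_smul]; exact hu' m hm) ?_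
      intro m hm
      have hm' : c m := not_not.1 hm
      obtain ⟨μ, -, hμ⟩ := h.S.sim g hgz
      have e2 := hμ (f m) (f i)
      rw [hga m hm', hf.off m i (fun e => hi (e ▸ hm')), mul_zero, map_smul, LinearMap.smul_apply, smul_eq_mul] at e2
      exact (mul_eq_zero.1 e2).resolve_left ha0
    rw [e1, one_smul]

/-- **The frame.** -/
structure Fr (P N0 : Subgroup Γ) (z s : Γ) (ψ : ↥(normalizer (P : Set Γ)) →* Equiv.Perm (Fin 6))
    (act : Γ → V →ₗ[F] V) (B : V →ₗ[F] V →ₗ[F] F) {w m : ℕ} (e : Fin w → V) (b : Fin m → V) : Prop where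
  big : Big P N0 z s ψ act B
  orth : Orth B (Sum.elim e b)
  card : w + m = finrank F V
  eigE : ∀ n ∈ N0, (∀ i, act n (e i) = e i) ∨ (∀ i, act n (e i) = -e i)
  eigB : ∀ k, Eig N0 act (b k)
  Z : ∀ (g : Γ) (hg : g ∈ normalizer (P : Set Γ)) (a : F), (∀ i, act g (e i) = a • e i) → ψ ⟨g, hg⟩ = 1
  w3 : 3 ≤ w

/-- **the frame exists** -/
theorem Big.exists_frame [Finite F] [FiniteDimensional F V] (h : Big P N0 z s ψ act B) :
    ∃ (w m : ℕ) (e : Fin w → V) (b : Fin m → V), Fr P N0 z s ψ act B e b := by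
  classical
  obtain ⟨f, hf, he⟩ := h.exists_basis (finrank F V) le_rfl
  have hcard : Fintype.card (Fin (finrank F V)) = finrank F V := Fintype.card_fin _
  obtain ⟨i₀, j₀, l₀, hij, hil, hjl, sj, sl⟩ := h.exists_class hf hcard he
  let c : Fin (finrank F V) → Prop := fun i => Big.Same N0 act (f i₀) (f i)
  let eE : Fin (Fintype.card {i // c i}) ≃ {i // c i} := (Fintype.equivFin _).symm
  let eB : Fin (Fintype.card {i // ¬ c i}) ≃ {i // ¬ c i} := (Fintype.equivFin _).symm
  refine ⟨Fintype.card {i // c i}, Fintype.card {i // ¬ c i}, fun i => f (eE i), fun k => f (eB k), ⟨h, ⟨?_, ?_⟩, ?_,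
    ?_, fun k => he _, ?_, ?_⟩⟩
  · rintro (i | i) (j | j) hne
    · exact hf.off _ _ fun e => hne (congrArg Sum.inl (eE.injective (Subtype.ext e)))
    · exact hf.off _ _ fun e => (eB j).2 (by rw [← e]; exact (eE i).2)
    · exact hf.off _ _ fun e => (eB i).2 (by rw [e]; exact (eE j).2)
    · exact hf.off _ _ fun e => hne (congrArg Sum.inr (eB.injective (Subtype.ext e)))
  · rintro (i | i)
    · exact hf.on _
    · exact hf.on _
  · have := Fintype.card_subtype_compl c
    have h3 := Fintype.card_subtype_le c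
    rw [Fintype.card_fin] at this h3
    omega
  · intro n hn
    rcases he i₀ n hn with e | e
    · left; intro i
      exact ((eE i).2 n hn).1 e
    · right; intro i
      refine (he _ n hn).resolve_left fun e' => ?_
      have e2 := ((eE i).2 n hn).2 e'
      rw [e] at e2
      have h5 : (2 : F) • f i₀ = 0 := by rw [two_smul]; nth_rw 1 [← e2]; exact neg_add_cancel _
      rcases smul_eq_zero.1 h5 with h6 | h6
      · exact h.S.two h6
      · exact hf.on i₀ (by rw [h6, map_zero])
  · intro g hg a hga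
    refine h.zone hf hcard he hij hil hjl sj sl hg (a := a) ?_
    intro i hi
    have := hga (eE.symm ⟨i, hi⟩)
    simpa using this
  · have h3 : ({i₀, j₀, l₀} : Finset (Fin (finrank F V))).card = 3 := by
      rw [Finset.card_insert_of_notMem (by simp [hij, hil]), Finset.card_insert_of_notMem (by simp [hjl]),
        Finset.card_singleton]
    rw [Fintype.card_subtype, ← h3]
    apply Finset.card_le_card
    intro x hx
    simp only [Finset.mem_insert, Finset.mem_singleton] at hx
    simp only [Finset.mem_filter, Finset.mem_univ, true_and]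
    rcases hx with rfl | rfl | rfl
    · exact fun n _ => Iff.rfl
    · exact sj
    · exact sl

namespace Fr

variable {w m : ℕ} {e : Fin w → V} {b : Fin m → V}

theorem hcard (h : Fr P N0 z s ψ act B e b) : Fintype.card (Fin w ⊕ Fin m) = finrank F V := by
  rw [Fintype.card_sum, Fintype.card_fin, Fintype.card_fin, h.card]

theorem eig (h : Fr P N0 z s ψ act B e b) : ∀ i, Eig N0 act (Sum.elim e b i) := by
  rintro (i | k)
  · intro n hn
    rcases h.eigE n hn with e | e
    · left; exact e i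
    · right; exact e i
  · exact h.eigB k

theorem eb (h : Fr P N0 z s ψ act B e b) (i : Fin w) (k : Fin m) : B (e i) (b k) = 0 :=
  h.orth.off (Sum.inl i) (Sum.inr k) (by simp)

theorem be (h : Fr P N0 z s ψ act B e b) (i : Fin w) (k : Fin m) : B (b k) (e i) = 0 :=
  h.orth.off (Sum.inr k) (Sum.inl i) (by simp)

theorem ee (h : Fr P N0 z s ψ act B e b) : Orth B e :=
  ⟨fun i j hij => h.orth.off (Sum.inl i) (Sum.inl j) (by simpa using hij), fun i => h.orth.on (Sum.inl i)⟩

theorem bb (h : Fr P N0 z s ψ act B e b) : Orth B b :=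
  ⟨fun i j hij => h.orth.off (Sum.inr i) (Sum.inr j) (by simpa using hij), fun i => h.orth.on (Sum.inr i)⟩

theorem ne_neg (h : Fr P N0 z s ψ act B e b) {v : V} (hv : v ≠ 0) : -v ≠ v := by
  intro e2
  have h5 : (2 : F) • v = 0 := by rw [two_smul]; nth_rw 1 [← e2]; exact neg_add_cancel _
  rcases smul_eq_zero.1 h5 with h6 | h6
  · exact h.big.S.two h6
  · exact hv h6

theorem ne0 (h : Fr P N0 z s ψ act B e b) (i : Fin w ⊕ Fin m) : Sum.elim e b i ≠ 0 := fun h0 =>
  h.orth.on i (by rw [h0, map_zero])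

/-- **a change of basis in the zone** -/
theorem change [FiniteDimensional F V] (h : Fr P N0 z s ψ act B e b) {e' : Fin w → V} (ho : Orth B e')
    (hb : ∀ i k, B (e' i) (b k) = 0) : Fr P N0 z s ψ act B e' b := by
  have hb' : ∀ i k, B (b k) (e' i) = 0 := fun i k => by rw [h.big.S.symm, hb]
  have ho' : Orth B (Sum.elim e' b) := by
    refine ⟨?_, ?_⟩
    · rintro (i | i) (j | j) hne
      · exact ho.off i j fun e => hne (by rw [e])
      · exact hb _ _
      · exact hb' _ _
      · exact h.bb.off i j fun e => hne (by rw [e])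
    · rintro (i | i)
      · exact ho.on i
      · exact h.bb.on i
  have hin : ∀ (φ : V →ₗ[F] V) (a : F), (∀ i, φ (e i) = a • e i) → ∀ i, φ (e' i) = a • e' i := by
    intro φ a hφ i
    refine on_part h.orth h.hcard (c := fun x => x.isLeft = true) ?_ ?_
    · rintro (j | j) hj
      · exact hφ j
      · simp at hj
    · rintro (j | j) hj
      · simp at hj
      · exact hb' i j
  have hout : ∀ (φ : V →ₗ[F] V) (a : F), (∀ i, φ (e' i) = a • e' i) → ∀ i, φ (e i) = a • e i := by
    intro φ a hφ i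
    refine on_part ho' h.hcard (c := fun x => x.isLeft = true) ?_ ?_
    · rintro (j | j) hj
      · exact hφ j
      · simp at hj
    · rintro (j | j) hj
      · simp at hj
      · exact h.be i j
  refine ⟨h.big, ho', h.card, ?_, h.eigB, ?_, h.w3⟩
  · intro n hn
    rcases h.eigE n hn with e1 | e1
    · left
      intro i
      have := hin (act n) 1 (fun i => by rw [e1, one_smul]) i
      rw [this, one_smul]
    · right
      intro i
      have := hin (act n) (-1) (fun i => by rw [e1, neg_one_smul]) i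
      rw [this, neg_one_smul]
  · intro g hg a hga
    exact h.Z g hg a (hout _ a hga)

/-- an element of `C(z)` diagonal in the frame, a scalar on the zone, with square trivial is in `N0` -/
theorem diag_mem [FiniteDimensional F V] (h : Fr P N0 z s ψ act B e b) {g : Γ} (hgz : g * z = z * g)
    {a : F} (ha : ∀ i, act g (e i) = a • e i) (haa : a * a = 1) (hb : ∀ k, act g (b k) = b k ∨ act g (b k) = -b k) :
    g ∈ N0 := by
  have hd : ∀ i, ∃ c : F, act g (Sum.elim e b i) = c • Sum.elim e b i := by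
    rintro (i | k)
    · exact ⟨a, ha i⟩
    · rcases hb k with e1 | e1
      · exact ⟨1, by rw [one_smul]; exact e1⟩
      · exact ⟨-1, by rw [neg_one_smul]; exact e1⟩
  obtain ⟨hH, hN⟩ := h.big.key hgz (h.big.diag_comm h.orth h.hcard h.eig hd)
  have h2 : g ^ 2 ^ (1 + 1) = 1 := by
    apply h.big.S.two_elt h.big.C.z_sq hgz
    intro v
    rw [pow_one, pow_two, h.big.S.mul _ _ hgz hgz]
    refine h.orth.ext_map h.hcard (φ := act g ∘ₗ act g) (φ' := LinearMap.id) ?_ v
    rintro (i | k)
    · simp only [LinearMap.comp_apply, LinearMap.id_apply, Sum.elim_inl]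
      rw [ha, map_smul, ha, smul_smul, haa, one_smul]
    · simp only [LinearMap.comp_apply, LinearMap.id_apply, Sum.elim_inr]
      rcases hb k with e1 | e1
      · rw [e1, e1]
      · rw [e1, map_neg, e1, neg_neg]
  exact mem_N0 h.big.C hH hN h2 (h.Z g hH a ha)

end Fr

end Cfsg.Agent.H512.Co3
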